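import Cfsg.Agent.Cusp.C

/-!
# The degree of a cuspidal character of `GL_n(q)`
-/

set_option autoImplicit false

open scoped ComplexConjugate MatrixGroups
open Cfsg Finset Matrix

namespace CF.Cusp
open CF.Char

variable {n : ℕ} {F : Type*} [Field F]

/-- The unipotent radical of the `m`-th maximal parabolic. -/
def InP (m : ℕ) (M : Matrix (Fin n) (Fin n) F) : Prop :=
  ∀ i j : Fin n, ¬ (i.1 < m ∧ m ≤ j.1) → M i j = (1 : Matrix (Fin n) (Fin n) F) i j

theorem InU.mul_eq {k : ℕ} {M X : Matrix (Fin n) (Fin n) F} (h : InU k M)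
    (hX : ∀ i j, k ≤ i.1 → X i j = 0) : M * X = X := by
  ext i j
  rw [mul_apply]
  conv_rhs => rw [← Matrix.one_mul X, mul_apply]
  refine sum_congr rfl fun l _ => ?_
  by_cases e : l.1 < k
  · rw [h i l (Or.inl e)]
  · rw [hX l j (not_lt.1 e), mul_zero, mul_zero]

theorem InU.mul_inP {k : ℕ} {M u : Matrix (Fin n) (Fin n) F} (h : InU k M) (hu : InP k u) :
    M * u = M + (u - 1) := by
  have := h.mul_eq (X := u - 1) fun i j e => by
    rw [Matrix.sub_apply, hu i j (by omega), sub_self]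
  rw [← this, mul_sub, mul_one, add_sub_cancel]

theorem InU.add {k : ℕ} {M X : Matrix (Fin n) (Fin n) F} (h : InU k M)
    (hX : ∀ i j, ¬ (i.1 < k ∧ k ≤ j.1) → X i j = 0) : InU k (M + X) := fun i j e => by
  rw [Matrix.add_apply, h i j e, hX i j (by rw [Fin.le_def] at e; omega), add_zero]

theorem InP.sub {k : ℕ} {u : Matrix (Fin n) (Fin n) F} (hu : InP k u) (i j : Fin n)
    (e : ¬ (i.1 < k ∧ k ≤ j.1)) : (u - 1) i j = 0 := by
  rw [Matrix.sub_apply, hu i j e, sub_self]

theorem InP.inU {k : ℕ} {u : Matrix (Fin n) (Fin n) F} (hu : InP k u) : InU k u :=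
  fun i j e => hu i j (by rw [Fin.le_def] at e; omega)

theorem InP.inv {k : ℕ} {u : GL (Fin n) F} (hu : InP k u.1) : InP k u⁻¹.1 := by
  have h1 : u.1 * (1 - (u.1 - 1)) = 1 := by
    rw [mul_sub, mul_one, hu.inU.mul_eq fun i j e => hu.sub i j (by omega)]
    simp
  have h2 : u⁻¹.1 = 1 - (u.1 - 1) := by
    rw [← Matrix.mul_one u⁻¹.1, ← h1, ← Matrix.mul_assoc, u.inv_mul, Matrix.one_mul, h1]
  intro i j e
  rw [h2, Matrix.sub_apply, hu.sub i j e, sub_zero]

theorem inU_mul_iff {k : ℕ} {g u : GL (Fin n) F} (hu : InP k u.1) :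
    InU k (g * u).1 ↔ InU k g.1 := by
  have : ∀ g u : GL (Fin n) F, InP k u.1 → InU k g.1 → InU k (g * u).1 := fun g u hu h => by
    rw [Units.val_mul, h.mul_inP hu]
    exact h.add hu.sub
  exact ⟨fun h => by simpa using this _ _ hu.inv h, this _ _ hu⟩

/-- The rows `≥ k` are trivial. -/
def RowId (k : ℕ) (M : Matrix (Fin n) (Fin n) F) : Prop :=
  ∀ i j : Fin n, k ≤ i.1 → M i j = (1 : Matrix (Fin n) (Fin n) F) i j

theorem RowId.mul {k : ℕ} {h : Matrix (Fin n) (Fin n) F} (hh : RowId k h)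
    (X : Matrix (Fin n) (Fin n) F) {i : Fin n} (e : k ≤ i.1) (j : Fin n) : (h * X) i j = X i j := by
  conv_rhs => rw [← Matrix.one_mul X]
  simp only [mul_apply, hh i _ e]

theorem RowId.inv {k : ℕ} {h : GL (Fin n) F} (hh : RowId k h.1) : RowId k h⁻¹.1 := fun i j e => by
  rw [← hh.mul h⁻¹.1 e, h.mul_inv]

theorem RowId.conj {k : ℕ} {h g : GL (Fin n) F} (hh : RowId k h.1) (hg : InU k g.1) :
    (h * g * h⁻¹).1 = 1 + h.1 * (g.1 - 1) := by
  have h1 : (g.1 - 1) * h⁻¹.1 = g.1 - 1 := by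
    ext i j
    rw [mul_apply]
    conv_rhs => rw [← Matrix.mul_one (g.1 - 1), mul_apply]
    refine sum_congr rfl fun l _ => ?_
    by_cases e : l.1 < k
    · rw [Matrix.sub_apply, hg i l (Or.inl e), sub_self, zero_mul, zero_mul]
    · rw [hh.inv l j (not_lt.1 e)]
  rw [← h1, Units.val_mul, Units.val_mul, sub_mul, mul_sub, one_mul, h.mul_inv, mul_assoc]
  abel

theorem RowId.conj_inU {k : ℕ} {h g : GL (Fin n) F} (hh : RowId k h.1) (hg : InU k g.1) :
    InU k (h * g * h⁻¹).1 := fun i j e => by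
  rw [hh.conj hg, Matrix.add_apply, add_eq_left]
  by_cases a : j.1 < k
  · rw [mul_apply]
    exact sum_eq_zero fun l _ => by rw [Matrix.sub_apply, hg l j (Or.inl a), sub_self, mul_zero]
  · have := e.resolve_left a
    rw [hh.mul _ (by rw [Fin.le_def] at this; omega), Matrix.sub_apply, hg i j e, sub_self]

theorem exists_rowId {k : ℕ} {c : Fin n → F} (hc : ∀ i, k ≤ i.1 → c i = 0) (h0 : c ≠ 0)
    {r : Fin n} (hr : r.1 < k) : ∃ h : GL (Fin n) F, RowId k h.1 ∧ h.1 r = c := by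
  obtain ⟨i0, hi⟩ := Function.ne_iff.1 h0
  have hk : i0.1 < k := not_le.1 fun e => hi (hc i0 e)
  let M : Matrix (Fin n) (Fin n) F := of fun i j =>
    if i = r then c j else if j = Equiv.swap i0 r i then 1 else 0
  have hM : IsUnit M := by
    rw [← mulVec_injective_iff_isUnit, ← coe_mulVecLin, injective_iff_map_eq_zero]
    intro v hv
    have h1 : ∀ j, j ≠ i0 → v j = 0 := fun j hj => by
      have h2 : Equiv.swap i0 r j ≠ r := fun e => hj (by
        rw [Equiv.swap_apply_eq_iff, Equiv.swap_apply_right] at e; exact e)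
      simpa [M, mulVec, dotProduct, h2] using congrFun hv (Equiv.swap i0 r j)
    have h3 : c i0 * v i0 = 0 := by
      have := congrFun hv r
      simp only [mulVecLin_apply, M, mulVec, dotProduct, of_apply, if_true, Pi.zero_apply] at this
      rwa [sum_eq_single i0 (fun j _ hj => by rw [h1 j hj, mul_zero]) (by simp)] at this
    funext j
    by_cases hj : j = i0
    · rw [hj]; exact (mul_eq_zero.1 h3).resolve_left hi
    · exact h1 j hj
  refine ⟨hM.unit, fun i j e => ?_, funext fun j => if_pos rfl⟩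
  change M i j = _
  have a1 : i ≠ r := fun a => by omega
  have a2 : i ≠ i0 := fun a => by omega
  simp only [M, of_apply, if_neg a1, Equiv.swap_apply_of_ne_of_ne a2 a1, one_apply]
  exact if_congr eq_comm rfl rfl

variable [Fintype F] [DecidableEq F] {ψ : AddChar F ℂ}

/-- Vectors supported on the first `k` coordinates. -/
def lowV (n : ℕ) (F : Type*) [Field F] [Fintype F] [DecidableEq F] (k : ℕ) : Finset (Fin n → F) :=
  {c | ∀ i, k ≤ i.1 → c i = 0}

theorem mem_lowV {k : ℕ} {c : Fin n → F} : c ∈ lowV n F k ↔ ∀ i, k ≤ i.1 → c i = 0 := by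
  simp [lowV]

theorem card_lowV {k : ℕ} (hk : k ≤ n) : #(lowV n F k) = Fintype.card F ^ k := by
  have : lowV n F k = Fintype.piFinset fun i : Fin n => if i.1 < k then univ else {0} := by
    ext c
    rw [mem_lowV, Fintype.mem_piFinset]
    refine forall_congr' fun i => ?_
    split_ifs with h <;> simp <;> omega
  rw [this, Fintype.card_piFinset]
  simp only [apply_ite card, card_singleton, card_univ, prod_ite, prod_const, one_pow, mul_one]
  rw [Fin.card_filter_val_lt, min_eq_right hk]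

theorem sum_shift {α : Type*} (s : Finset α) (e : α ≃ α) (he : ∀ a, e a ∈ s ↔ a ∈ s) (f : α → ℂ)
    {z : ℂ} (hz : z ≠ 1) (h : ∀ a ∈ s, f (e a) = z * f a) : ∑ a ∈ s, f a = 0 := by
  have : ∑ a ∈ s, f a = z * ∑ a ∈ s, f a := by
    rw [mul_sum, ← sum_congr rfl h]
    exact (sum_equiv e (fun a => (he a).symm) fun _ _ => rfl).symm
  rw [← sub_eq_zero, ← one_mul (∑ a ∈ s, f a), ← mul_assoc, mul_one, ← sub_mul] at this
  exact (mul_eq_zero.1 this).resolve_left (sub_ne_zero.2 hz.symm)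

open _root_.Classical in
theorem fourier (hψ : ψ ≠ 1) {k : ℕ} (hk : k ≤ n) (v : Fin n → F) :
    ∑ c ∈ lowV n F k, ψ (c ⬝ᵥ v) =
      if ∀ i : Fin n, i.1 < k → v i = 0 then (Fintype.card F : ℂ) ^ k else 0 := by
  split_ifs with h
  · rw [sum_congr rfl (g := fun _ => 1), sum_const, card_lowV hk]
    · simp
    · intro c hc
      rw [dotProduct, sum_eq_zero, AddChar.map_zero_eq_one]
      intro i _
      by_cases e : i.1 < k
      · rw [h i e, mul_zero]
      · rw [mem_lowV.1 hc i (not_lt.1 e), zero_mul]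
  · push Not at h
    obtain ⟨i, h1, h2⟩ := h
    obtain ⟨t, ht⟩ := exists_ne_one hψ h2
    refine sum_shift _ (Equiv.addLeft (Pi.single i t)) (fun c => ?_) _ ht fun c _ => ?_
    · simp only [mem_lowV, Equiv.coe_addLeft, Pi.add_apply]
      refine forall₂_congr fun j hj => ?_
      rw [Pi.single_eq_of_ne (fun e => by omega), zero_add]
    · rw [Equiv.coe_addLeft, add_dotProduct, AddChar.map_add_eq_mul, single_dotProduct]

open _root_.Classical in
/-- The elements of `U_{≥ k}`. -/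
noncomputable def uSet (n : ℕ) (F : Type*) [Field F] [Fintype F] [DecidableEq F] (k : ℕ) :
    Finset (GL (Fin n) F) := {g | InU k g.1}

theorem mem_uSet {k : ℕ} {g : GL (Fin n) F} : g ∈ uSet n F k ↔ InU k g.1 := by simp [uSet]

theorem fourier_sum (hψ : ψ ≠ 1) (k : Fin n) (f : GL (Fin n) F → ℂ) :
    ∑ c ∈ lowV n F k, ∑ g ∈ uSet n F k, f g * ψ (c ⬝ᵥ fun i => g.1 i k) =
      (Fintype.card F : ℂ) ^ k.1 * ∑ g ∈ uSet n F (k + 1), f g := by
  classical
  rw [sum_comm]
  simp only [← mul_sum, fourier hψ k.2.le, mul_ite, mul_zero]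
  rw [← sum_filter, mul_sum]
  refine sum_congr ?_ fun _ _ => mul_comm _ _
  ext g
  rw [mem_filter, mem_uSet, mem_uSet]
  refine ⟨fun h i j e => ?_, fun h => ⟨fun i j e => h i j (by omega), fun i e => ?_⟩⟩
  · by_cases a : j.1 < k ∨ j ≤ i
    · exact h.1 i j a
    · obtain rfl : j = k := Fin.ext (by omega)
      rw [h.2 i (by rw [Fin.le_def] at a; omega), one_apply_ne fun b => a (Or.inr b.ge)]
  · rw [h i k (by omega), one_apply_ne fun b => by rw [b] at e; omega]

theorem card_uSet (hψ : ψ ≠ 1) (k : Fin n) :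
    (#(uSet n F k) : ℂ) = (Fintype.card F : ℂ) ^ k.1 * #(uSet n F (k + 1)) := by
  have := fourier_sum hψ k fun _ => 1
  rw [sum_eq_single_of_mem 0 (mem_lowV.2 fun _ _ => rfl)] at this
  · simpa using this
  intro c hc h0
  obtain ⟨i, hi⟩ := Function.ne_iff.1 h0
  have hk : i < k := not_le.1 fun e => hi (mem_lowV.1 hc i e)
  obtain ⟨t, ht⟩ := exists_ne_one hψ hi
  have hu : InP k (rootU hk t).1.1 := fun a b e => by
    rw [rootU_val, Matrix.add_apply, single_apply_of_ne, add_zero]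
    rintro ⟨rfl, rfl⟩
    exact e ⟨hk, le_rfl⟩
  refine sum_shift _ (Equiv.mulRight (rootU hk t).1) (fun g => ?_) _ ht fun g hg => ?_
  · rw [mem_uSet, mem_uSet, Equiv.coe_mulRight, inU_mul_iff hu]
  · rw [Equiv.coe_mulRight, Units.val_mul, (mem_uSet.1 hg).mul_inP hu, rootU_val, one_mul, one_mul,
      ← AddChar.map_add_eq_mul, add_sub_cancel_left]
    congr 1
    have : (fun a => (g.1 + single i k t) a k) = Pi.single i t + fun a => g.1 a k := by
      funext a
      simp [single_apply, Pi.single_apply, add_comm, eq_comm]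
    rw [this, dotProduct_add, dotProduct_single, mul_comm]

omit [Fintype F] [DecidableEq F] in
theorem sd_congr {k : ℕ} {M N : Matrix (Fin n) (Fin n) F}
    (h : ∀ i j : Fin n, j.1 = i.1 + 1 → k ≤ j.1 → M i j = N i j) : sd k M = sd k N :=
  sum_congr rfl fun i _ => sum_congr rfl fun j _ => by
    split_ifs with e
    · exact h i j e.1 e.2
    · rfl

omit [Fintype F] [DecidableEq F] in
theorem sd_succ {k r : Fin n} (e : k.1 = r.1 + 1) (M : Matrix (Fin n) (Fin n) F) :
    sd k M = sd (k + 1) M + M r k := by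
  have : M r k = ∑ i : Fin n, ∑ j : Fin n, if i = r ∧ j = k then M i j else 0 := by
    simp [ite_and]
  simp only [sd, this, ← sum_add_distrib]
  refine sum_congr rfl fun i _ => sum_congr rfl fun j _ => ?_
  simp only [Fin.ext_iff]
  split_ifs <;> first | omega | simp

open _root_.Classical in
/-- Cuspidality as in the statement. -/
def IsCusp (χ : GL (Fin n) F → ℂ) : Prop :=
  ∀ m : ℕ, 0 < m → m < n → (∑ g : GL (Fin n) F, if InP m g.1 then χ g else 0) = 0

variable (n F) in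
/-- The unipotent radical as a subgroup. -/
def radP (m : ℕ) : Subgroup (GL (Fin n) F) where
  carrier := {g | InP m g.1}
  one_mem' := fun _ _ _ => rfl
  mul_mem' := fun {a b} ha hb i j e => by
    have ha : InP m a.1 := ha
    have hb : InP m b.1 := hb
    rw [Units.val_mul, ha.inU.mul_inP hb, Matrix.add_apply, hb.sub i j e, ha i j e, add_zero]
  inv_mem' := InP.inv

open _root_.Classical in
theorem IsCusp.van {χ : GL (Fin n) F → ℂ} (h : IsCusp χ) (hχ : IsCharacter _ χ) {m : ℕ}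
    (h0 : 0 < m) (h1 : m < n) (g : GL (Fin n) F) : ∑ u : radP n F m, χ (g * u) = 0 :=
  Cusp.van (radP n F m).subtype hχ (by
    rw [← h m h0 h1, ← sum_filter]
    exact (sum_subtype _ (fun x => by rw [mem_filter]; exact and_iff_right (mem_univ _)) _).symm) g

theorem deg_step (hψ : ψ ≠ 1) {χ : GL (Fin n) F → ℂ} (h : IsCusp χ) (hχ : IsCharacter _ χ)
    {k : Fin n} (h0 : 0 < k.1) :
    ((Fintype.card F : ℂ) ^ k.1 - 1) * ∑ g ∈ uSet n F k, χ g * ψ (sd k g.1) =
      (Fintype.card F : ℂ) ^ k.1 * ∑ g ∈ uSet n F (k + 1), χ g * ψ (sd (k + 1) g.1) := by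
  classical
  let r : Fin n := ⟨k.1 - 1, by omega⟩
  have hr : k.1 = r.1 + 1 := by simp only [r]; omega
  rw [← fourier_sum hψ k, ← add_sum_erase (lowV n F k) _ (a := 0) (mem_lowV.2 fun _ _ => rfl)]
  have e0 : ∑ g ∈ uSet n F k, χ g * ψ (sd (k + 1) g.1) * ψ (0 ⬝ᵥ fun i => g.1 i k) = 0 := by
    have : ∀ u : radP n F k, ∑ g ∈ uSet n F k, χ g * ψ (sd (k + 1) g.1) =
        ∑ g ∈ uSet n F k, χ (g * u) * ψ (sd (k + 1) g.1) := fun u => by
      refine (sum_equiv (Equiv.mulRight u.1) (fun g => ?_) fun g hg => ?_).symm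
      · rw [mem_uSet, mem_uSet, Equiv.coe_mulRight, inU_mul_iff u.2]
      · rw [Equiv.coe_mulRight, Units.val_mul, (mem_uSet.1 hg).mul_inP u.2]
        congr 2
        refine sd_congr fun i j a b => ?_
        rw [Matrix.add_apply, InP.sub u.2 i j (by omega), add_zero]
    have h2 := sum_congr (s₁ := univ) rfl fun u _ => this u
    rw [sum_const, sum_comm] at h2
    simp only [← sum_mul, h.van hχ h0 k.2, zero_mul, sum_const_zero, card_univ,
      smul_eq_zero, Fintype.card_ne_zero, false_or] at h2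
    simpa using h2
  rw [e0, zero_add, sum_congr (s₁ := (lowV n F k).erase 0) rfl
    (g := fun _ => ∑ g ∈ uSet n F k, χ g * ψ (sd k g.1)), sum_const,
    card_erase_of_mem (a := 0) (mem_lowV.2 fun _ _ => rfl), card_lowV k.2.le, nsmul_eq_mul,
    Nat.cast_pred (pow_pos Fintype.card_pos _), Nat.cast_pow]
  intro c hc
  obtain ⟨a, ha, hc'⟩ := exists_rowId (mem_lowV.1 (mem_of_mem_erase hc)) (ne_of_mem_erase hc)
    (r := r) (by omega)
  refine sum_equiv (MulAut.conj a).toEquiv (fun g => ?_) fun g hg => ?_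
  · rw [mem_uSet, mem_uSet]
    refine ⟨ha.conj_inU, fun e => ?_⟩
    simpa [mul_assoc] using ha.inv.conj_inU e
  · rw [mem_uSet] at hg
    change _ = χ (a * g * a⁻¹) * ψ (sd k (a * g * a⁻¹).1)
    rw [char_isClassFunction hχ, sd_succ hr, ha.conj hg, AddChar.map_add_eq_mul, mul_assoc]
    congr 3
    · refine sd_congr fun i j e1 e2 => ?_
      rw [Matrix.add_apply, ha.mul _ (by omega), Matrix.sub_apply, add_sub_cancel]
    · rw [Matrix.add_apply, one_apply_ne (fun e => by rw [e] at hr; omega), zero_add, mul_apply,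
        hc', dotProduct]
      refine sum_congr rfl fun l _ => ?_
      by_cases e : l = k
      · rw [mem_lowV.1 (mem_of_mem_erase hc) l (by rw [e]), zero_mul, zero_mul]
      · rw [Matrix.sub_apply, one_apply_ne e, sub_zero]

theorem uSet_top : uSet n F n = {1} := by
  ext g
  rw [mem_uSet, mem_singleton]
  exact ⟨fun h => Units.ext (Matrix.ext fun i j => h i j (Or.inl j.2)), fun h _ _ _ => by rw [h]; rfl⟩

theorem deg_all (hψ : ψ ≠ 1) {χ : GL (Fin n) F → ℂ} (h : IsCusp χ) (hχ : IsCharacter _ χ)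
    {k : ℕ} (hk : k ≤ n) (h0 : 0 < k) :
    (∑ g ∈ uSet n F k, χ g * ψ (sd k g.1)) * ∏ i ∈ Ico k n, ((Fintype.card F : ℂ) ^ i - 1) =
      #(uSet n F k) * χ 1 := by
  induction hk using Nat.decreasingInduction with
  | self => simp [uSet_top, sd_one]
  | of_succ k hk ih =>
    have h1 := deg_step hψ h hχ (k := ⟨k, hk⟩) h0
    have h2 := card_uSet hψ (⟨k, hk⟩ : Fin n)
    simp only at h1 h2
    rw [prod_eq_prod_Ico_succ_bot hk, h2, ← mul_assoc, mul_comm _ (_ - _), h1, mul_assoc,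
      ih (by omega), mul_assoc]

theorem gam_eq [Fintype (Uni n F)] (χ : GL (Fin n) F → ℂ) :
    gam (Uni n F) (psi n ψ) χ =
      (#(uSet n F 0) : ℂ)⁻¹ * ∑ g ∈ uSet n F 0, χ g * ψ⁻¹ (sd 0 g.1) := by
  rw [gam, inner_def, sum_subtype (p := (· ∈ Uni n F)) _ (fun _ => mem_uSet),
    Nat.card_eq_fintype_card, ← card_univ, card_eq_sum_ones, card_eq_sum_ones,
    sum_subtype (p := (· ∈ Uni n F)) (uSet n F 0) (fun _ => mem_uSet)]
  congr 1
  refine sum_congr rfl fun u _ => ?_
  rw [psi_val, AddChar.inv_apply, AddChar.map_neg_eq_conj]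

theorem card_uSet_ne (k : ℕ) : (#(uSet n F k) : ℂ) ≠ 0 :=
  Nat.cast_ne_zero.2 (card_ne_zero.2 ⟨1, mem_uSet.2 fun _ _ _ => rfl⟩)

theorem deg_cusp [Fintype (Uni n F)] (hψ : ψ ≠ 1) (hn : 0 < n) {χ : GL (Fin n) F → ℂ}
    (h : IsCusp χ) (hχ : IsIrrCharacter _ χ) : gam (Uni n F) (psi n ψ) χ = 1 ∧
      χ 1 = ∏ i ∈ Ico 1 n, ((Fintype.card F : ℂ) ^ i - 1) := by
  have h1 := deg_all (inv_ne_one.2 hψ) h (irr_isCharacter hχ) hn one_pos
  have h2 : uSet n F 1 = uSet n F 0 := by
    ext g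
    rw [mem_uSet, mem_uSet]
    refine forall₂_congr fun i j => imp_congr_left ?_
    rw [Fin.le_def]
    omega
  have h3 : ∀ M : Matrix (Fin n) (Fin n) F, sd 1 M = sd 0 M := fun M =>
    sum_congr rfl fun i _ => sum_congr rfl fun j _ => if_congr (by omega) rfl rfl
  simp only [h2, h3] at h1
  have h4 : gam (Uni n F) (psi n ψ) χ * ∏ i ∈ Ico 1 n, ((Fintype.card F : ℂ) ^ i - 1) = χ 1 := by
    rw [gam_eq, mul_assoc, h1, inv_mul_cancel_left₀ (card_uSet_ne 0)]
  rcases gam_le_one hψ hχ with e | e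
  · rw [e, zero_mul] at h4
    exact absurd h4.symm (irr_one_ne_zero hχ)
  · exact ⟨e, by rw [← h4, e, one_mul]⟩

end CF.Cusp
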