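import Mathlib

/-!
# The Hall product of class functions of all general linear groups
-/

set_option autoImplicit false

open scoped ComplexConjugate
open Finset Module

namespace CF.Cusp

universe u

variable {F : Type u} [Field F]

variable (F) in
/-- Functions on the endomorphisms of all finite-dimensional spaces. -/
abbrev Fam := ∀ (V : Type u) [AddCommGroup V] [Module F V] [FiniteDimensional F V], End F V → ℂ

/-- Invariance under isomorphism. -/
def IsCl (φ : Fam F) : Prop :=
  ∀ (V V' : Type u) [AddCommGroup V] [Module F V] [FiniteDimensional F V] [AddCommGroup V']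
    [Module F V'] [FiniteDimensional F V'] (e : V ≃ₗ[F] V') (g : End F V) (g' : End F V'),
    (∀ v, e (g v) = g' (e v)) → φ V g = φ V' g'

variable {V V' A B : Type u} [AddCommGroup V] [Module F V] [FiniteDimensional F V]
  [AddCommGroup V'] [Module F V'] [FiniteDimensional F V']
  [AddCommGroup A] [Module F A] [FiniteDimensional F A]
  [AddCommGroup B] [Module F B] [FiniteDimensional F B]

/-- Invariant subspaces. -/
abbrev Inv (W : Submodule F V) (g : End F V) : Prop := ∀ x ∈ W, g x ∈ W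

open _root_.Classical in
/-- Value on the restriction. -/
noncomputable def RR (φ : Fam F) (W : Submodule F V) (g : End F V) : ℂ :=
  if h : Inv W g then φ W (g.restrict h) else 0

open _root_.Classical in
/-- Value on the quotient. -/
noncomputable def QQ (φ : Fam F) (W : Submodule F V) (g : End F V) : ℂ :=
  if h : Inv W g then φ (V ⧸ W) (W.mapQ W g h) else 0

theorem RR_of_not {φ : Fam F} {W : Submodule F V} {g : End F V} (h : ¬ Inv W g) :
    RR φ W g = 0 := dif_neg h

theorem RR_eq {φ : Fam F} (hφ : IsCl φ) {W : Submodule F V} {g : End F V} (i : A →ₗ[F] V)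
    (hi : Function.Injective i) (hW : LinearMap.range i = W) {a : End F A}
    (h : ∀ x, g (i x) = i (a x)) : RR φ W g = φ A a := by
  subst hW
  have h1 : Inv (LinearMap.range i) g := by
    rintro _ ⟨x, rfl⟩
    exact ⟨_, (h x).symm⟩
  rw [RR, dif_pos h1]
  exact (hφ _ _ (LinearEquiv.ofInjective i hi) a (g.restrict h1) fun x => Subtype.ext (h x).symm).symm

theorem QQ_eq {φ : Fam F} (hφ : IsCl φ) {W : Submodule F V} {g : End F V} (p : V →ₗ[F] B)
    (hp : Function.Surjective p) (hW : LinearMap.ker p = W) {b : End F B}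
    (h : ∀ x, p (g x) = b (p x)) : QQ φ W g = φ B b := by
  subst hW
  have h1 : Inv (LinearMap.ker p) g := fun x hx => by
    rw [LinearMap.mem_ker] at hx ⊢
    rw [h, hx, map_zero]
  rw [QQ, dif_pos h1]
  refine hφ _ _ (p.quotKerEquivOfSurjective hp) _ _ fun x => ?_
  obtain ⟨x, rfl⟩ := Submodule.Quotient.mk_surjective _ x
  exact h x

omit [FiniteDimensional F V] [FiniteDimensional F V'] in
theorem inv_map (e : V ≃ₗ[F] V') {g : End F V} {g' : End F V'} (h : ∀ v, e (g v) = g' (e v))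
    (W : Submodule F V) : Inv (W.map e.toLinearMap) g' ↔ Inv W g := by
  refine ⟨fun a x hx => ?_, fun a => ?_⟩
  · have := a _ (Submodule.mem_map_of_mem (f := e.toLinearMap) hx)
    rwa [LinearEquiv.coe_coe, ← h, Submodule.mem_map_equiv, e.symm_apply_apply] at this
  · rintro _ ⟨x, hx, rfl⟩
    exact ⟨_, a x hx, h x⟩

theorem RR_map {φ : Fam F} (hφ : IsCl φ) (e : V ≃ₗ[F] V') {g : End F V} {g' : End F V'}
    (h : ∀ v, e (g v) = g' (e v)) (W : Submodule F V) :
    RR φ (W.map e.toLinearMap) g' = RR φ W g := by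
  by_cases a : Inv W g
  · rw [RR_eq hφ (e.toLinearMap ∘ₗ W.subtype) (e.injective.comp W.injective_subtype)
      (by rw [LinearMap.range_comp, W.range_subtype]) (a := g.restrict a) fun x => (h x).symm,
      RR, dif_pos a]
  · rw [RR_of_not a, RR_of_not (mt (inv_map e h W).1 a)]

theorem QQ_map {φ : Fam F} (hφ : IsCl φ) (e : V ≃ₗ[F] V') {g : End F V} {g' : End F V'}
    (h : ∀ v, e (g v) = g' (e v)) (W : Submodule F V) :
    QQ φ (W.map e.toLinearMap) g' = QQ φ W g := by
  by_cases a : Inv W g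
  · rw [QQ_eq hφ (W.mkQ ∘ₗ e.symm.toLinearMap) (W.mkQ_surjective.comp e.symm.surjective)
      (by rw [LinearMap.ker_comp, W.ker_mkQ, Submodule.map_equiv_eq_comap_symm])
      (b := W.mapQ W g a) fun x => by
        obtain ⟨x, rfl⟩ := e.surjective x
        simp [← h], QQ, dif_pos a]
  · rw [QQ, QQ, dif_neg a, dif_neg (mt (inv_map e h W).1 a)]

variable [Fintype F]

noncomputable instance instFintypeHom : Fintype (A →ₗ[F] B) :=
  @Fintype.ofFinite _ (Module.finite_of_finite F)

noncomputable instance instFintypeSub : Fintype (Submodule F V) :=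
  have : Finite V := Module.finite_of_finite F
  @Fintype.ofFinite _ (Finite.of_injective _ SetLike.coe_injective)

noncomputable instance instFintypeUn : Fintype (End F V)ˣ := Fintype.ofFinite _

/-- The Hall product. -/
noncomputable def hall (φ φ' : Fam F) : Fam F :=
  fun V _ _ _ g => ∑ W : Submodule F V, RR φ W g * QQ φ' W g

theorem hall_cl {φ φ' : Fam F} (h : IsCl φ) (h' : IsCl φ') : IsCl (hall φ φ') := by
  intro V V' _ _ _ _ _ _ e g g' hg
  refine Fintype.sum_equiv (Submodule.orderIsoMapComap e).toEquiv _ _ fun W => ?_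
  rw [← RR_map h e hg, ← QQ_map h' e hg]
  rfl

/-- Block triangular maps. -/
def blk (a : End F A) (x : B →ₗ[F] A) (b : End F B) : End F (A × B) :=
  (a.coprod x).prod (b ∘ₗ LinearMap.snd F A B)

omit [Fintype F] [FiniteDimensional F A] [FiniteDimensional F B] in
@[simp] theorem blk_apply (a : End F A) (x : B →ₗ[F] A) (b : End F B) (v : A × B) :
    blk a x b v = (a v.1 + x v.2, b v.2) := rfl

variable (F A B) in
/-- The first factor. -/
abbrev W0 : Submodule F (A × B) := LinearMap.range (LinearMap.inl F A B)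

omit [Fintype F] [FiniteDimensional F A] [FiniteDimensional F B] in
theorem mem_W0 {v : A × B} : v ∈ W0 F A B ↔ v.2 = 0 := by
  rw [W0, LinearMap.range_inl]; rfl

omit [Fintype F] in
theorem RR_blk {φ : Fam F} (hφ : IsCl φ) (a : End F A) (x : B →ₗ[F] A) (b : End F B) :
    RR φ (W0 F A B) (blk a x b) = φ A a :=
  RR_eq hφ _ LinearMap.inl_injective rfl fun v => by simp

omit [Fintype F] in
theorem QQ_blk {φ : Fam F} (hφ : IsCl φ) (a : End F A) (x : B →ₗ[F] A) (b : End F B) :
    QQ φ (W0 F A B) (blk a x b) = φ B b :=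
  QQ_eq hφ _ LinearMap.snd_surjective (LinearMap.range_inl F A B).symm fun _ => rfl

open _root_.Classical in
theorem sum_blk2 (b : End F B) (f : End F (A × B) → ℂ) :
    ∑ a, ∑ x, f (blk a x b) = ∑ g, if ∀ v, (g v).2 = b v.2 then f g else 0 := by
  rw [← Fintype.sum_prod_type' (f := fun a x => f (blk a x b))]
  refine Fintype.sum_of_injective (fun p => blk p.1 p.2 b) ?_ _ _ (fun g hg => if_neg fun h => hg ?_)
    fun p => (if_pos fun _ => rfl).symm
  · rintro ⟨a, x⟩ ⟨a', x'⟩ e
    refine Prod.ext (LinearMap.ext fun v => ?_) (LinearMap.ext fun v => ?_)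
    · simpa using LinearMap.congr_fun e (v, 0)
    · simpa using LinearMap.congr_fun e (0, v)
  · refine ⟨(LinearMap.fst F A B ∘ₗ g ∘ₗ LinearMap.inl F A B,
      LinearMap.fst F A B ∘ₗ g ∘ₗ LinearMap.inr F A B), LinearMap.ext fun v => ?_⟩
    refine Prod.ext ?_ (h v).symm
    simp [← Prod.fst_add, ← map_add]

theorem sum_blk (f : End F (A × B) → ℂ) (hf : ∀ g, ¬ Inv (W0 F A B) g → f g = 0) :
    ∑ g, f g = ∑ b, ∑ a, ∑ x, f (blk a x b) := by
  classical
  simp only [sum_blk2]
  rw [sum_comm]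
  refine sum_congr rfl fun g _ => ?_
  by_cases h : Inv (W0 F A B) g
  · rw [sum_eq_single (LinearMap.snd F A B ∘ₗ g ∘ₗ LinearMap.inr F A B) _ (by simp), if_pos]
    · intro v
      have := mem_W0.1 (h (v.1, 0) (mem_W0.2 rfl))
      conv_lhs => rw [show v = (v.1, 0) + (0, v.2) by simp, map_add, Prod.snd_add, this, zero_add]
      rfl
    · exact fun b _ hb => if_neg fun e => hb (LinearMap.ext fun v => (e (0, v)).symm)
  · simp [hf g h]

theorem card_hom : Fintype.card (A →ₗ[F] B) = Fintype.card F ^ (finrank F A * finrank F B) := by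
  rw [← Nat.card_eq_fintype_card, Module.natCard_eq_pow_finrank (K := F), Module.finrank_linearMap,
    Nat.card_eq_fintype_card]

/-- The nilpotent radical attached to a subspace. -/
def radS (C : Submodule F V) : Submodule F (End F V) where
  carrier := {n | (∀ v, n v ∈ C) ∧ ∀ v ∈ C, n v = 0}
  zero_mem' := by simp
  add_mem' := fun {a b} ha hb =>
    ⟨fun v => C.add_mem (ha.1 v) (hb.1 v), fun v hv => by simp [ha.2 v hv, hb.2 v hv]⟩
  smul_mem' := fun c a ha => ⟨fun v => C.smul_mem c (ha.1 v), fun v hv => by simp [ha.2 v hv]⟩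

noncomputable instance instFintypeRadS (C : Submodule F V) : Fintype (radS C) := Fintype.ofFinite _

/-- Cuspidal families. -/
def CuspF (σ : Fam F) : Prop :=
  ∀ (V : Type u) [AddCommGroup V] [Module F V] [FiniteDimensional F V] (C : Submodule F V),
    C ≠ ⊥ → C ≠ ⊤ → ∀ g : End F V, ∑ n : radS C, σ V (g * (1 + n)) = 0

omit [Fintype F] [FiniteDimensional F V] in
theorem inv_mul_iff {W : Submodule F V} {n : End F V} (h1 : ∀ v ∈ W, n v ∈ W) (h2 : n * n = 0)
    (g : End F V) : Inv W (g * (1 + n)) ↔ Inv W g := by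
  refine ⟨fun a x hx => ?_, fun a x hx => a _ (W.add_mem hx (h1 x hx))⟩
  have := a _ (W.sub_mem hx (h1 x hx))
  have e : n (n x) = 0 := LinearMap.congr_fun h2 x
  simpa [e, ← map_add] using this

omit [Fintype F] in
theorem RR_mul {φ : Fam F} {W : Submodule F V} {n : End F V} (h1 : ∀ v ∈ W, n v = 0)
    (h2 : n * n = 0) (g : End F V) : RR φ W (g * (1 + n)) = RR φ W g := by
  have h3 := inv_mul_iff (W := W) (fun v hv => by rw [h1 v hv]; exact W.zero_mem) h2 g
  by_cases a : Inv W g
  · rw [RR, RR, dif_pos a, dif_pos (h3.2 a)]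
    congr 1
    ext x
    simp [LinearMap.restrict_apply, h1 x x.2]
  · rw [RR_of_not a, RR_of_not (mt h3.1 a)]

omit [Fintype F] in
theorem QQ_mul {φ : Fam F} {W : Submodule F V} {n : End F V} (h1 : ∀ v, n v ∈ W)
    (h2 : n * n = 0) (g : End F V) : QQ φ W (g * (1 + n)) = QQ φ W g := by
  have h3 := inv_mul_iff (W := W) (fun v _ => h1 v) h2 g
  by_cases a : Inv W g
  · rw [QQ, QQ, dif_pos a, dif_pos (h3.2 a)]
    congr 1
    ext x
    simp [(Submodule.Quotient.mk_eq_zero W).2 (a _ (h1 x))]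
  · rw [QQ, QQ, dif_neg a, dif_neg (mt h3.1 a)]

/-- Multiplication by `1 + n`. -/
def mulE {n : End F V} (h : n * n = 0) : End F V ≃ End F V where
  toFun g := g * (1 + n)
  invFun g := g * (1 - n)
  left_inv g := by
    have : (1 + n) * (1 - n) = 1 := by simp [add_mul, mul_sub, h]
    simp only [mul_assoc, this, mul_one]
  right_inv g := by
    have : (1 - n) * (1 + n) = 1 := by simp [mul_add, sub_mul, h]
    simp only [mul_assoc, this, mul_one]

theorem van_pair {σ : Fam F} (hσ : CuspF σ) {W W' : Submodule F V} (h1 : W ⊓ W' ≠ ⊥)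
    (h2 : ¬ W ≤ W') (Ψ : End F V → ℂ) (hΨ : ∀ n : End F V, (∀ v, n v ∈ W ⊓ W') →
      (∀ v ∈ W', n v = 0) → ∀ g, Ψ (g * (1 + n)) = Ψ g) : ∑ g, RR σ W g * Ψ g = 0 := by
  classical
  obtain ⟨p, hp1, hp2⟩ : ∃ p : V →ₗ[F] W, (∀ x : W, p x = x) ∧ ∀ v ∈ W', (p v : V) ∈ W' := by
    obtain ⟨D, hD⟩ := (W.comap W'.subtype).exists_isCompl
    have h3 : Disjoint (D.map W'.subtype) W := by
      rw [Submodule.disjoint_def]
      rintro _ ⟨x, hx, rfl⟩ hx'
      rw [Submodule.disjoint_def.1 hD.1 x hx' hx, map_zero]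
    obtain ⟨D', h4, h5⟩ := h3.exists_isCompl
    refine ⟨W.projectionOnto D' h5.symm, by simp, fun v hv => ?_⟩
    obtain ⟨y, hy, z, hz, e⟩ := Submodule.mem_sup.1 (hD.2.eq_top ▸ Submodule.mem_top :
      (⟨v, hv⟩ : W') ∈ W.comap W'.subtype ⊔ D)
    have hy' : y.1 ∈ W := hy
    have e' : v = (⟨y, hy'⟩ : W) + z := (congrArg Subtype.val e).symm
    rw [e', map_add, Submodule.projectionOnto_apply_left,
      Submodule.projectionOnto_apply_of_mem_right _ (x := z.1) (h4 ⟨z, hz, rfl⟩), add_zero]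
    exact y.2
  let C := W'.comap W.subtype
  have hC1 : C ≠ ⊥ := fun e => h1 (by
    rw [← Submodule.map_comap_subtype, show W'.comap W.subtype = ⊥ from e, Submodule.map_bot])
  have hC2 : C ≠ ⊤ := fun e => h2 (Submodule.comap_subtype_eq_top.1 e)
  have key : ∀ n : radS C, ∑ g, RR σ W g * Ψ g =
      ∑ g, if h : Inv W g then σ W (g.restrict h * (1 + n)) * Ψ g else 0 := fun n => by
    let N : End F V := W.subtype ∘ₗ n.1 ∘ₗ p
    have a1 : ∀ v, N v ∈ W ⊓ W' := fun v => ⟨(n.1 (p v)).2, n.2.1 _⟩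
    have a2 : ∀ v ∈ W', N v = 0 := fun v hv => congrArg Subtype.val (n.2.2 _ (hp2 v hv))
    have a3 : N * N = 0 := LinearMap.ext fun v => a2 _ (a1 v).2
    refine (Fintype.sum_equiv (mulE a3) _ _ fun g => ?_).symm
    change _ = RR σ W (g * (1 + N)) * Ψ (g * (1 + N))
    have a4 := inv_mul_iff (W := W) (fun v _ => (a1 v).1) a3 g
    rw [hΨ N a1 a2]
    split_ifs with h
    · rw [RR, dif_pos (a4.2 h)]
      congr 2
      ext x
      simp [LinearMap.restrict_apply, N, hp1]
    · rw [RR_of_not (mt a4.1 h), zero_mul]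
  have h3 := sum_congr (s₁ := univ) rfl fun n _ => key n
  rw [sum_const, sum_comm, sum_eq_zero (s := univ) (f := fun g => ∑ n : radS C, _)] at h3
  · simpa using h3
  · intro g _
    split_ifs with h
    · rw [← sum_mul, hσ W C hC1 hC2, zero_mul]
    · exact sum_const_zero

/-- Graphs. -/
abbrev gr (B' : Submodule F B) (s : B' →ₗ[F] A) : Submodule F (A × B) :=
  LinearMap.range (s.prod B'.subtype)

open _root_.Classical in
theorem sum_gr (f : Submodule F (A × B) → ℂ) :
    ∑ W ∈ univ.filter fun W => W0 F A B ⊓ W = ⊥, f W = ∑ B', ∑ s, f (gr B' s) := by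
  rw [sum_sigma', eq_comm]
  refine sum_bij (fun p _ => gr p.1 p.2) (fun p _ => ?_) ?_ (fun W hW => ?_) fun _ _ => rfl
  · rw [mem_filter, Submodule.eq_bot_iff]
    refine ⟨mem_univ _, ?_⟩
    rintro _ ⟨h1, x, rfl⟩
    rw [show x = 0 from Subtype.ext (mem_W0.1 h1), map_zero]
  · rintro ⟨B1, s1⟩ _ ⟨B2, s2⟩ _ e
    have h1 : ∀ (B' : Submodule F B) (s : B' →ₗ[F] A), (gr B' s).map (LinearMap.snd F A B) = B' :=
      fun B' s => by rw [← LinearMap.range_comp, LinearMap.snd_prod, B'.range_subtype]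
    obtain rfl : B1 = B2 := by rw [← h1 B1 s1, ← h1 B2 s2]; exact congrArg _ e
    congr 1
    ext x
    obtain ⟨y, hy⟩ := e.le ⟨x, rfl⟩
    obtain rfl : y = x := Subtype.ext (congrArg Prod.snd hy)
    exact (congrArg Prod.fst hy).symm
  · let j := LinearMap.snd F A B ∘ₗ W.subtype
    have hj : Function.Injective j := by
      rw [injective_iff_map_eq_zero]
      intro x hx
      exact Subtype.ext ((Submodule.eq_bot_iff _).1 (mem_filter.1 hW).2 _ ⟨mem_W0.2 hx, x.2⟩)
    let e := LinearEquiv.ofInjective j hj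
    refine ⟨⟨_, LinearMap.fst F A B ∘ₗ W.subtype ∘ₗ e.symm.toLinearMap⟩, by simp, ?_⟩
    have : (LinearMap.fst F A B ∘ₗ W.subtype ∘ₗ e.symm.toLinearMap).prod
        (LinearMap.range j).subtype = W.subtype ∘ₗ e.symm.toLinearMap := by
      ext1 x
      obtain ⟨x, rfl⟩ := e.surjective x
      exact Prod.ext rfl (by simp [e, j])
    simp only [gr, this]
    rw [LinearMap.range_comp_of_range_eq_top _ e.symm.range, W.range_subtype]

open _root_.Classical in
theorem graph {τ φ : Fam F} (hτ : IsCl τ) (hφ : IsCl φ) (a : End F A) (b : End F B)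
    (c : (B →ₗ[F] A) → ℂ) (hc : ∀ x S, c (x + S ∘ₗ b - a ∘ₗ S) = c x) :
    ∑ x, c x * ∑ W ∈ univ.filter fun W => W0 F A B ⊓ W = ⊥,
        RR τ W (blk a x b) * QQ φ W (blk a x b) =
      ∑ B' : Submodule F B, Fintype.card (B' →ₗ[F] A) * (RR τ B' b *
        if h : Inv B' b then ∑ y : (B ⧸ B') →ₗ[F] A,
          c (y ∘ₗ B'.mkQ) * φ _ (blk a y (B'.mapQ B' b h)) else 0) := by
  simp only [sum_gr, mul_sum]
  rw [sum_comm]
  refine sum_congr rfl fun B' _ => ?_
  rw [sum_comm, ← nsmul_eq_mul, ← card_univ, ← sum_const]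
  refine sum_congr rfl fun s _ => ?_
  obtain ⟨S, rfl⟩ := s.exists_extend
  split_ifs with h
  swap
  · rw [mul_zero]
    refine sum_eq_zero fun x _ => ?_
    rw [RR_of_not fun e => h fun v hv => ?_, zero_mul, mul_zero]
    obtain ⟨y, hy⟩ := e _ ⟨⟨v, hv⟩, rfl⟩
    have h2 : y.1 = b v := congrArg Prod.snd hy
    exact h2 ▸ y.2
  rw [mul_sum, eq_comm]
  refine Fintype.sum_of_injective (fun y => y ∘ₗ B'.mkQ + S ∘ₗ b - a ∘ₗ S) (fun y y' e => ?_) _ _
    (fun x hx => ?_) fun y => ?_
  · exact Submodule.linearMap_qext _ (by simpa using e)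
  · rw [RR_of_not fun e => hx ?_, zero_mul, mul_zero]
    refine ⟨B'.liftQ (x + a ∘ₗ S - S ∘ₗ b) fun v hv => ?_, ?_⟩
    · obtain ⟨y, hy⟩ := e _ ⟨⟨v, hv⟩, rfl⟩
      have h1 : S y = a (S v) + x v := congrArg Prod.fst hy
      have h2 : y.1 = b v := congrArg Prod.snd hy
      simp [← h2, h1, add_comm]
    · simp only [Submodule.liftQ_mkQ]
      abel
  · rw [hc, RR, dif_pos h,
      RR_eq hτ ((S ∘ₗ B'.subtype).prod B'.subtype) (a := b.restrict h) _ rfl,
      QQ_eq hφ ((LinearMap.fst F A B - S ∘ₗ LinearMap.snd F A B).prod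
        (B'.mkQ ∘ₗ LinearMap.snd F A B)) (b := blk a y (B'.mapQ B' b h))]
    · ring
    · rintro ⟨u, v⟩
      obtain ⟨v, rfl⟩ := B'.mkQ_surjective v
      exact ⟨(u + S v, v), by simp⟩
    · ext ⟨u, v⟩
      simp [sub_eq_zero, and_comm, @eq_comm _ u]
    · rintro ⟨u, v⟩
      simp
      abel
    · intro x
      simp [LinearMap.restrict_apply, (Submodule.Quotient.mk_eq_zero B').2 x.2]
    · intro x y e
      exact Subtype.ext (congrArg Prod.snd e :)

end CF.Cusp
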