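import Cfsg.Agent.Cusp.E

/-!
# Adjoints of Hall multiplication and the derivation formula
-/

set_option autoImplicit false

open scoped ComplexConjugate
open Finset Module

namespace CF.Cusp

universe u

variable {F : Type u} [Field F] [Fintype F]
  {V V' A B : Type u} [AddCommGroup V] [Module F V] [FiniteDimensional F V]
  [AddCommGroup V'] [Module F V'] [FiniteDimensional F V']
  [AddCommGroup A] [Module F A] [FiniteDimensional F A]
  [AddCommGroup B] [Module F B] [FiniteDimensional F B]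

variable (V) in
/-- The inner product in the space `V`. -/
noncomputable def ip (φ φ' : Fam F) : ℂ :=
  (Nat.card (End F V)ˣ : ℂ)⁻¹ * ∑ g, φ V g * conj (φ' V g)

variable (A) in
/-- The adjoint of the multiplication by `σ`. -/
noncomputable def adj (σ f : Fam F) : Fam F := fun B _ _ _ b =>
  ((Nat.card (End F A)ˣ : ℂ) * Fintype.card (B →ₗ[F] A))⁻¹ *
    ∑ a, ∑ x, conj (σ A a) * f (A × B) (blk a x b)

theorem card_un_ne : (Nat.card (End F V)ˣ : ℂ) ≠ 0 := Nat.cast_ne_zero.2 Nat.card_pos.ne'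

theorem card_hom_ne : (Fintype.card (A →ₗ[F] B) : ℂ) ≠ 0 := Nat.cast_ne_zero.2 Fintype.card_ne_zero

theorem adj_cl (σ : Fam F) {f : Fam F} (h : IsCl f) : IsCl (adj A σ f) := by
  intro V V' _ _ _ _ _ _ e g g' hg
  unfold adj
  rw [card_hom, card_hom, e.finrank_eq]
  congr 1
  refine sum_congr rfl fun a _ => ?_
  refine Fintype.sum_equiv (e.arrowCongr (LinearEquiv.refl F A)).toEquiv _ _ fun x => ?_
  rw [h _ _ ((LinearEquiv.refl F A).prodCongr e) (blk a x g)]
  intro v
  simp [hg]

omit [Fintype F] in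
/-- Conjugation of units. -/
def unE (e : V ≃ₗ[F] V') : (End F V)ˣ ≃* (End F V')ˣ := Units.mapEquiv (e.conjAlgEquiv F).toMulEquiv

theorem ip_congr (e : V ≃ₗ[F] V') {φ φ' : Fam F} (h : IsCl φ) (h' : IsCl φ') :
    ip V φ φ' = ip V' φ φ' := by
  unfold ip
  rw [Nat.card_congr (unE e).toEquiv]
  congr 1
  refine Fintype.sum_equiv e.conj.toEquiv _ _ fun g => ?_
  rw [h _ _ e g (e.conj g) (by simp), h' _ _ e g (e.conj g) (by simp)]
  rfl

theorem ip_conj (φ φ' : Fam F) : conj (ip V φ φ') = ip V φ' φ := by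
  simp [ip, mul_comm]

/-- Supported in dimension `d`. -/
def Deg (σ : Fam F) (d : ℕ) : Prop :=
  ∀ (V : Type u) [AddCommGroup V] [Module F V] [FiniteDimensional F V] (g : End F V),
    finrank F V ≠ d → σ V g = 0

omit [Fintype F] in
theorem isUnit_of_inv {W : Submodule F V} {g : End F V} (h : Inv W g) (h1 : IsUnit (g.restrict h))
    (h2 : IsUnit (W.mapQ W g h)) : IsUnit g := by
  rw [LinearMap.isUnit_iff_ker_eq_bot, LinearMap.ker_eq_bot'] at h1 h2 ⊢
  intro v hv
  have h3 : v ∈ W := (Submodule.Quotient.mk_eq_zero W).1 (h2 _ (by simp [hv]))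
  exact congrArg Subtype.val (h1 ⟨v, h3⟩ (Subtype.ext hv))

omit [Fintype F] in
theorem isUnit_blk {a : End F A} {x : B →ₗ[F] A} {b : End F B} :
    IsUnit (blk a x b) ↔ IsUnit a ∧ IsUnit b := by
  refine ⟨fun h => ⟨?_, ?_⟩, fun h => ?_⟩
  · rw [LinearMap.isUnit_iff_ker_eq_bot, LinearMap.ker_eq_bot'] at h ⊢
    exact fun v hv => congrArg Prod.fst (h (v, 0) (by simp [hv]))
  · rw [LinearMap.isUnit_iff_range_eq_top, LinearMap.range_eq_top] at h ⊢
    intro v
    obtain ⟨y, hy⟩ := h (0, v)
    exact ⟨y.2, congrArg Prod.snd hy⟩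
  · simp only [LinearMap.isUnit_iff_ker_eq_bot, LinearMap.ker_eq_bot'] at h ⊢
    intro v hv
    have h1 : v.2 = 0 := h.2 _ (congrArg Prod.snd hv)
    exact Prod.ext (h.1 _ (by simpa [h1] using congrArg Prod.fst hv)) h1

open _root_.Classical in
theorem sum_units (f : End F V → ℂ) (hf : ∀ g, ¬ IsUnit g → f g = 0) :
    ∑ g : (End F V)ˣ, f g = ∑ g, f g :=
  Fintype.sum_of_injective Units.val Units.val_injective _ _ hf fun _ => rfl

open _root_.Classical in
theorem card_units : (Nat.card (End F V)ˣ : ℂ) = ∑ g : End F V, if IsUnit g then 1 else 0 := by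
  rw [← sum_units _ fun g h => if_neg h]
  simp

omit [Fintype F] in
theorem exists_map_eq {W W' : Submodule F V} (h : finrank F W = finrank F W') :
    ∃ e : V ≃ₗ[F] V, W.map e.toLinearMap = W' := by
  obtain ⟨e, he⟩ := Submodule.exists_linearEquiv_restrict_eq (LinearEquiv.ofFinrankEq W W' h)
  refine ⟨e, Submodule.eq_of_le_of_finrank_eq ?_ (by rw [LinearEquiv.finrank_map_eq, h])⟩
  rintro _ ⟨x, hx, rfl⟩
  exact (he ⟨x, hx⟩ ▸ (LinearEquiv.ofFinrankEq W W' h ⟨x, hx⟩).2 :)

open _root_.Classical in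
theorem card_sub : (#{W : Submodule F (A × B) | finrank F W = finrank F A} : ℂ) *
    (Nat.card (End F B)ˣ * (Nat.card (End F A)ˣ * Fintype.card (B →ₗ[F] A))) =
      Nat.card (End F (A × B))ˣ := by
  have h0 : finrank F (W0 F A B) = finrank F A := LinearMap.finrank_range_of_inj LinearMap.inl_injective
  have h1 : (Nat.card (End F B)ˣ * (Nat.card (End F A)ˣ * Fintype.card (B →ₗ[F] A)) : ℂ) =
      ∑ g : End F (A × B), if IsUnit g ∧ Inv (W0 F A B) g then 1 else 0 := by
    rw [sum_blk _ fun g h => if_neg fun e => h e.2, card_units, card_units, sum_mul]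
    refine sum_congr rfl fun b _ => ?_
    rw [sum_mul, mul_sum]
    refine sum_congr rfl fun a _ => ?_
    have : ∀ x, Inv (W0 F A B) (blk a x b) := fun x v hv => by
      rw [mem_W0] at hv ⊢; simp [hv]
    simp only [isUnit_blk, this, and_true]
    by_cases h1 : IsUnit a <;> by_cases h2 : IsUnit b <;> simp [h1, h2]
  have h2 : ∀ g : End F (A × B), (if IsUnit g then (1 : ℂ) else 0) =
      ∑ W ∈ ({W | finrank F W = finrank F A} : Finset (Submodule F (A × B))),
        if IsUnit g ∧ (W0 F A B).map g = W then 1 else 0 := fun g => by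
    by_cases h : IsUnit g
    · simp only [h, true_and, if_true, sum_ite_eq, mem_filter, mem_univ]
      rw [if_pos]
      exact (LinearEquiv.finrank_map_eq (LinearMap.GeneralLinearGroup.toLinearEquiv h.unit) _).trans
        h0
    · simp [h]
  rw [card_units (V := A × B), sum_congr rfl fun g _ => h2 g, sum_comm, h1, ← nsmul_eq_mul,
    ← sum_const]
  refine sum_congr rfl fun W hW => ?_
  obtain ⟨e, rfl⟩ := exists_map_eq (h0.trans (mem_filter.1 hW).2.symm)
  let u := LinearMap.GeneralLinearGroup.ofLinearEquiv e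
  refine Fintype.sum_equiv u.mulLeft _ _ fun g => if_congr ?_ rfl rfl
  change _ ↔ IsUnit (u * g) ∧ (W0 F A B).map (e.toLinearMap ∘ₗ g) = _
  rw [Units.isUnit_units_mul, Submodule.map_comp, (Submodule.map_injective_of_injective
    (f := e.toLinearMap) e.injective).eq_iff]
  refine and_congr_right fun h => ⟨fun a => ?_, fun a x hx => a.le ⟨x, hx, rfl⟩⟩
  refine Submodule.eq_of_le_of_finrank_eq (Submodule.map_le_iff_le_comap.2 a) ?_
  exact LinearEquiv.finrank_map_eq (LinearMap.GeneralLinearGroup.toLinearEquiv h.unit) _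

theorem ip_hall {σ a f : Fam F} (hσ : IsCl σ) (ha : IsCl a) (hf : IsCl f)
    (hd : Deg σ (finrank F A)) : ip (A × B) (hall σ a) f = ip B a (adj A σ f) := by
  classical
  have h0 : finrank F (W0 F A B) = finrank F A := LinearMap.finrank_range_of_inj LinearMap.inl_injective
  set S := ∑ b, ∑ c, ∑ x, σ A c * a B b * conj (f _ (blk c x b)) with hS
  have h1 : ∑ g, hall σ a (A × B) g * conj (f _ g) =
      #{W : Submodule F (A × B) | finrank F W = finrank F A} * S := by
    simp only [hall, sum_mul]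
    rw [sum_comm, ← nsmul_eq_mul, ← sum_const, sum_filter]
    refine sum_congr rfl fun W _ => ?_
    split_ifs with h
    · obtain ⟨e, rfl⟩ := exists_map_eq (h0.trans h.symm)
      rw [← Fintype.sum_equiv e.conj.toEquiv (fun g => RR σ (W0 F A B) g * QQ a (W0 F A B) g *
        conj (f _ g)) _ fun g => ?_, sum_blk _ fun g h => by rw [RR_of_not h, zero_mul, zero_mul]]
      · simp only [RR_blk hσ, QQ_blk ha, hS]
      · have : ∀ v, e (g v) = e.conj g (e v) := by simp
        rw [← RR_map hσ e this, ← QQ_map ha e this, hf _ _ e g _ this]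
        rfl
    · refine sum_eq_zero fun g _ => ?_
      rw [RR]
      split_ifs
      · rw [hd _ _ h, zero_mul, zero_mul]
      · rw [zero_mul, zero_mul]
  have h2 : ∑ b, a B b * conj (adj A σ f B b) =
      ((Nat.card (End F A)ˣ : ℂ) * Fintype.card (B →ₗ[F] A))⁻¹ * S := by
    rw [hS, mul_sum]
    refine sum_congr rfl fun b _ => ?_
    simp only [adj, map_mul, map_inv₀, map_natCast, map_sum, Complex.conj_conj, mul_sum]
    exact sum_congr rfl fun c _ => sum_congr rfl fun x _ => by ring
  have h3 : (#{W : Submodule F (A × B) | finrank F W = finrank F A} : ℂ) ≠ 0 :=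
    Nat.cast_ne_zero.2 (card_ne_zero.2 ⟨_, mem_filter.2 ⟨mem_univ _, h0⟩⟩)
  rw [ip, ip, h1, h2, ← card_sub]
  have := card_un_ne (F := F) (V := A)
  have := card_un_ne (F := F) (V := B)
  have := card_hom_ne (F := F) (A := B) (B := A)
  field_simp

/-- Complex conjugate of a family. -/
def cj (σ : Fam F) : Fam F := fun V _ _ _ g => conj (σ V g)

omit [Fintype F] in
theorem cj_cl {σ : Fam F} (h : IsCl σ) : IsCl (cj σ) := fun V V' _ _ _ _ _ _ e g g' hg => by
  simp only [cj, h V V' e g g' hg]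

theorem cj_cusp {σ : Fam F} (h : CuspF σ) : CuspF (cj σ) := fun V _ _ _ C h1 h2 g => by
  simp only [cj, ← map_sum, h V C h1 h2 g, map_zero]

theorem adj_hall [Nontrivial A] {σ τ b : Fam F} (hσ : IsCl σ) (hτ : IsCl τ) (hb : IsCl b)
    (cσ : CuspF σ) (cτ : CuspF τ) (g : End F B) :
    adj A σ (hall τ b) B g = ip A τ σ * b B g + hall τ (adj A σ b) B g := by
  classical
  let T : Submodule F (A × B) → ℂ := fun W =>
    ∑ a, ∑ x, conj (σ A a) * (RR τ W (blk a x g) * QQ b W (blk a x g))
  have h0 : W0 F A B ≠ ⊥ := by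
    obtain ⟨v, hv⟩ := exists_ne (0 : A)
    exact fun e => hv (congrArg Prod.fst ((Submodule.eq_bot_iff _).1 e (v, 0) (mem_W0.2 rfl)))
  have h1 : ∀ W, W ≠ W0 F A B → W0 F A B ⊓ W ≠ ⊥ → T W = 0 := fun W a1 a2 => by
    have : T W = ∑ h, if ∀ v, (h v).2 = g v.2 then
        RR (cj σ) (W0 F A B) h * (RR τ W h * QQ b W h) else 0 := by
      rw [← sum_blk2]
      simp only [RR_blk (cj_cl hσ), T, cj]
    rw [this]
    by_cases a3 : W0 F A B ≤ W
    · refine Eq.trans ?_ (van_pair cτ (by rwa [inf_comm]) (fun e => a1 (le_antisymm e a3))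
        (fun h => if ∀ v, (h v).2 = g v.2 then RR (cj σ) (W0 F A B) h * QQ b W h else 0) ?_)
      · exact sum_congr rfl fun h _ => by split_ifs <;> ring
      · intro n n1 n2 h
        have n3 : n * n = 0 := LinearMap.ext fun v => n2 _ (n1 v).2
        rw [RR_mul n2 n3, QQ_mul (fun v => (n1 v).1) n3]
        refine if_congr ⟨fun e v => ?_, fun e v => ?_⟩ rfl rfl
        · have := e (v - n v)
          have n4 : n (n v) = 0 := n2 _ (n1 v).2
          simpa [n4, ← map_add, mem_W0.1 (n1 v).2] using this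
        · simp [e, mem_W0.1 (n1 v).2]
    · refine Eq.trans ?_ (van_pair (cj_cusp cσ) a2 a3
        (fun h => if ∀ v, (h v).2 = g v.2 then RR τ W h * QQ b W h else 0) ?_)
      · exact sum_congr rfl fun h _ => by split_ifs <;> ring
      · intro n n1 n2 h
        have n3 : n * n = 0 := LinearMap.ext fun v => n2 _ (n1 v).2
        rw [RR_mul n2 n3, QQ_mul (fun v => (n1 v).2) n3]
        refine if_congr ⟨fun e v => ?_, fun e v => ?_⟩ rfl rfl
        · have := e (v - n v)
          have n4 : n (n v) = 0 := n2 _ (n1 v).2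
          simpa [n4, ← map_add, mem_W0.1 (n1 v).1] using this
        · simp [e, mem_W0.1 (n1 v).1]
  have h2 : ∑ a, ∑ x, conj (σ A a) * hall τ b (A × B) (blk a x g) =
      T (W0 F A B) + ∑ W ∈ univ.filter fun W => W0 F A B ⊓ W = ⊥, T W := by
    have : ∑ a, ∑ x, conj (σ A a) * hall τ b (A × B) (blk a x g) = ∑ W, T W := by
      simp only [hall, mul_sum, T]
      conv_rhs => rw [sum_comm]
      exact sum_congr rfl fun a _ => sum_comm
    rw [this, ← add_sum_erase _ _ (mem_univ (W0 F A B))]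
    congr 1
    refine (sum_subset (fun W hW => ?_) fun W a1 a2 => ?_).symm
    · refine mem_erase.2 ⟨fun e => h0 ?_, mem_univ _⟩
      simpa [e] using (mem_filter.1 hW).2
    · exact h1 W (ne_of_mem_erase a1) fun e => a2 (mem_filter.2 ⟨mem_univ _, e⟩)
  have h3 : ∑ W ∈ univ.filter fun W => W0 F A B ⊓ W = ⊥, T W =
      ∑ B' : Submodule F B, ∑ a, conj (σ A a) * (Fintype.card (B' →ₗ[F] A) * (RR τ B' g *
        if h : Inv B' g then ∑ y : (B ⧸ B') →ₗ[F] A, b _ (blk a y (B'.mapQ B' g h)) else 0)) := by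
    conv_rhs => rw [sum_comm]
    rw [sum_comm]
    refine sum_congr rfl fun a _ => ?_
    have := graph hτ hb a g (fun _ => 1) fun _ _ => rfl
    simp only [one_mul] at this
    rw [← mul_sum, ← this, sum_comm, mul_sum]
    simp only [mul_sum]
  have := card_un_ne (F := F) (V := A)
  have := card_hom_ne (F := F) (A := B) (B := A)
  rw [adj, h2, h3, mul_add, hall]
  congr 1
  · simp only [T, RR_blk hτ, QQ_blk hb, sum_const, card_univ, nsmul_eq_mul, ip, ← mul_sum]
    have e : ∑ a, conj (σ A a) * (Fintype.card (B →ₗ[F] A) * (τ A a * b B g)) =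
        Fintype.card (B →ₗ[F] A) * ((∑ a, τ A a * conj (σ A a)) * b B g) := by
      rw [sum_mul, mul_sum]
      exact sum_congr rfl fun a _ => by ring
    rw [e]
    field_simp
  · rw [mul_sum]
    refine sum_congr rfl fun B' _ => ?_
    by_cases h : Inv B' g
    · simp only [QQ, dif_pos h, adj, ← mul_sum]
      have e : (Fintype.card (B →ₗ[F] A) : ℂ) =
          Fintype.card (B' →ₗ[F] A) * Fintype.card ((B ⧸ B') →ₗ[F] A) := by
        rw [card_hom, card_hom, card_hom, ← B'.finrank_quotient_add_finrank]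
        push_cast
        ring
      have := card_hom_ne (F := F) (A := B') (B := A)
      have := card_hom_ne (F := F) (A := B ⧸ B') (B := A)
      rw [e]
      field_simp
      rw [mul_sum]
      exact sum_congr rfl fun a _ => by ring
    · simp [RR_of_not h]

end CF.Cusp
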