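import Cfsg.Agent.Cusp.D
import Cfsg.Agent.Cusp.F

/-!
# Characters as families
-/

set_option autoImplicit false

open scoped ComplexConjugate MatrixGroups
open Cfsg Finset Module

namespace CF.Cusp
open CF.Char

universe u

variable {F : Type u} [Field F]
  {V V' A B : Type u} [AddCommGroup V] [Module F V] [FiniteDimensional F V]
  [AddCommGroup V'] [Module F V'] [FiniteDimensional F V']
  [AddCommGroup A] [Module F A] [FiniteDimensional F A]
  [AddCommGroup B] [Module F B] [FiniteDimensional F B] {d : ℕ}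

/-- Supported on units. -/
def OnU (φ : Fam F) : Prop :=
  ∀ (V : Type u) [AddCommGroup V] [Module F V] [FiniteDimensional F V] (g : End F V),
    ¬ IsUnit g → φ V g = 0

/-- Families of characters. -/
structure IsChr (φ : Fam F) : Prop where
  cl : IsCl φ
  onU : OnU φ
  chr : ∀ (V : Type u) [AddCommGroup V] [Module F V] [FiniteDimensional F V],
    IsCharacter (End F V)ˣ fun g => φ V g

/-- Matrices of units. -/
noncomputable def glE (b : Basis (Fin d) F V) : (End F V)ˣ ≃* GL (Fin d) F :=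
  Units.mapEquiv (LinearMap.toMatrixAlgEquiv b).toMulEquiv

omit [FiniteDimensional F V] in
theorem glE_val (b : Basis (Fin d) F V) (g : (End F V)ˣ) :
    (glE b g).1 = LinearMap.toMatrix b b g := rfl

open _root_.Classical in
/-- The family of a function on `GL_d`. -/
noncomputable def fam (d : ℕ) (χ : GL (Fin d) F → ℂ) : Fam F := fun V _ _ _ g =>
  if h : finrank F V = d ∧ IsUnit g then χ (glE (finBasisOfFinrankEq F V h.1) h.2.unit) else 0

theorem fam_eq {χ : GL (Fin d) F → ℂ} (h : IsClassFunction _ χ) (b : Basis (Fin d) F V)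
    (g : (End F V)ˣ) : fam d χ V g = χ (glE b g) := by
  have h1 : finrank F V = d := by simpa using finrank_eq_card_basis b
  rw [fam, dif_pos ⟨h1, g.isUnit⟩, IsUnit.unit_of_val_units]
  set b' := finBasisOfFinrankEq F V h1
  let P : GL (Fin d) F := ⟨b.toMatrix b', b'.toMatrix b, by simp, by simp⟩
  rw [← h _ P]
  congr 1
  apply Units.ext
  change b.toMatrix b' * LinearMap.toMatrix b' b' g * b'.toMatrix b = LinearMap.toMatrix b b g
  simp

theorem fam_onU (χ : GL (Fin d) F → ℂ) : OnU (fam d χ) := fun _ _ _ _ _ h => dif_neg fun e => h e.2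

theorem fam_deg (χ : GL (Fin d) F → ℂ) : Deg (fam d χ) d := fun _ _ _ _ _ h => dif_neg fun e => h e.1

omit [FiniteDimensional F V] [FiniteDimensional F V'] in
theorem eq_conj {e : V ≃ₗ[F] V'} {g : End F V} {g' : End F V'} (h : ∀ v, e (g v) = g' (e v)) :
    g' = e.conj g := LinearMap.ext fun v => by simp [h]

theorem fam_cl {χ : GL (Fin d) F → ℂ} (h : IsClassFunction _ χ) : IsCl (fam d χ) := by
  intro V V' _ _ _ _ _ _ e g g' hg
  obtain rfl := eq_conj hg
  by_cases h1 : finrank F V = d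
  swap
  · rw [fam_deg _ _ _ h1, fam_deg _ _ _ (e.finrank_eq ▸ h1)]
  by_cases h2 : IsUnit g
  · obtain ⟨g, rfl⟩ := h2
    let b := finBasisOfFinrankEq F V h1
    rw [fam_eq h b, show e.conj g.1 = (unE e g).1 from rfl, fam_eq h (b.map e)]
    congr 1
    ext i j
    simp [glE_val, LinearMap.toMatrix_apply, unE]
  · rw [fam_onU _ _ _ h2, fam_onU _ _ _ fun e' => h2 ?_]
    exact (isUnit_map_iff (e.conjAlgEquiv F) g).1 e'

theorem fam_chr {χ : GL (Fin d) F → ℂ} (h : IsCharacter _ χ) : IsChr (fam d χ) :=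
  ⟨fam_cl (char_isClassFunction h), fam_onU χ, fun V _ _ _ => by
    by_cases h1 : finrank F V = d
    · simp only [fam_eq (char_isClassFunction h) (finBasisOfFinrankEq F V h1)]
      exact char_comp h (glE _).toMonoidHom
    · simp only [fam_deg _ _ _ h1]
      exact isCharacter_zero⟩

theorem IsCl.classFun {φ : Fam F} (h : IsCl φ) : IsClassFunction (End F V)ˣ fun g => φ V g :=
  fun g x => (h _ _ (LinearMap.GeneralLinearGroup.toLinearEquiv x) _ _ fun v => by
    change x.1 (g.1 v) = (x * g * x⁻¹).1 (x.1 v)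
    rw [← End.mul_apply, ← End.mul_apply, ← Units.val_mul, ← Units.val_mul, inv_mul_cancel_right]).symm

variable [Fintype F]

theorem ip_eq {φ : Fam F} (h : OnU φ) (φ' : Fam F) :
    ip V φ φ' = classInner (fun g : (End F V)ˣ => φ V g) fun g => φ' V g := by
  rw [ip, inner_def, sum_units (fun g => φ V g * conj (φ' V g)) fun g hg => by
    rw [h _ _ hg, zero_mul]]

variable [DecidableEq F]

theorem ip_fam {φ : Fam F} (h : OnU φ) (b : Basis (Fin d) F V) {χ : GL (Fin d) F → ℂ}
    (hχ : IsClassFunction _ χ) :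
    ip V φ (fam d χ) = classInner (fun g => φ V ((glE b).symm g).1) χ := by
  rw [ip_eq h, ← inner_comp_equiv (glE b).toEquiv]
  simp [fam_eq hχ b]

theorem expand {φ : Fam F} (h : IsCl φ) (h' : OnU φ) (hd : finrank F V = d) (g : End F V) :
    φ V g = ∑ χ : IrrCharacter (GL (Fin d) F), ip V φ (fam d χ) * fam d χ V g := by
  by_cases hg : IsUnit g
  · obtain ⟨g, rfl⟩ := hg
    let b := finBasisOfFinrankEq F V hd
    have := classFun_apply_eq_sum (classFun_comp h.classFun (glE b).symm.toMonoidHom) (glE b g)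
    simp only [MulEquiv.toMonoidHom_eq_coe, MonoidHom.coe_coe, MulEquiv.symm_apply_apply] at this
    rw [this]
    refine sum_congr rfl fun χ _ => ?_
    rw [ip_fam h' b (irr_isClassFunction χ.2), fam_eq (irr_isClassFunction χ.2) b]
  · simp [h' _ _ hg, fam_onU _ _ _ hg]

open _root_.Classical in
theorem ip_fam_fam (hd : finrank F V = d) (χ χ' : IrrCharacter (GL (Fin d) F)) :
    ip V (fam d (χ : GL (Fin d) F → ℂ)) (fam d (χ' : GL (Fin d) F → ℂ)) = if χ = χ' then 1 else 0 := by
  let b := finBasisOfFinrankEq F V hd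
  rw [ip_fam (fam_onU _) b (irr_isClassFunction χ'.2), ← inner_irr']
  simp [fam_eq (irr_isClassFunction χ.2) b]

theorem chr_of_nat {φ : Fam F} (h : IsCl φ) (h' : OnU φ)
    (hn : ∀ (V : Type u) [AddCommGroup V] [Module F V] [FiniteDimensional F V] (f : Fam F),
      IsChr f → ∃ m : ℕ, ip V φ f = m) : IsChr φ :=
  ⟨h, h', fun V _ _ _ => by
    choose m hm using fun χ : IrrCharacter (GL (Fin (finrank F V)) F) =>
      hn V _ (fam_chr (irr_isCharacter χ.2))
    simp only [expand h h' rfl, hm]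
    have := char_sum univ (f := fun (χ : IrrCharacter (GL (Fin (finrank F V)) F)) =>
      (m χ : ℂ) • fun g : (End F V)ˣ => fam _ χ.1 V g) fun χ _ =>
        char_natCast_smul ((fam_chr (irr_isCharacter χ.2)).chr V) _
    convert this using 1
    ext g
    simp⟩

omit [DecidableEq F] in
theorem IsChr.ip_nat {φ f : Fam F} (h : IsChr φ) (h' : IsChr f) : ∃ m : ℕ, ip V φ f = m := by
  rw [ip_eq h.onU]
  exact inner_char_eq_nat (h.chr V) (h'.chr V)

variable (F A B) in
/-- The parabolic subgroup. -/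
def parG : Subgroup (End F (A × B))ˣ where
  carrier := {g | ∀ v, (g.1 (v, 0)).2 = 0}
  one_mem' := fun _ => rfl
  mul_mem' := fun {a b} ha hb v => by
    change (a.1 (b.1 (v, 0))).2 = 0
    rw [show b.1 (v, 0) = ((b.1 (v, 0)).1, 0) from Prod.ext rfl (hb v), ha]
  inv_mem' := fun {g} hg v => by
    have h1 : Function.Injective (LinearMap.fst F A B ∘ₗ g.1 ∘ₗ LinearMap.inl F A B) := by
      rw [injective_iff_map_eq_zero]
      intro x hx
      have : g.1 (x, 0) = 0 := Prod.ext hx (hg x)
      simpa [← End.mul_apply] using congrArg (fun y => (g⁻¹.1 y).1) this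
    obtain ⟨x, hx⟩ := LinearMap.injective_iff_surjective.1 h1 v
    have : g.1 (x, 0) = (v, 0) := Prod.ext hx (hg x)
    simp [← this, ← End.mul_apply]

/-- First projection. -/
def par1 : parG F A B →* (End F A)ˣ := MonoidHom.toHomUnits
  { toFun := fun g => LinearMap.fst F A B ∘ₗ g.1.1 ∘ₗ LinearMap.inl F A B
    map_one' := rfl
    map_mul' := fun a b => LinearMap.ext fun v => by
      change (a.1.1 (b.1.1 (v, 0))).1 = (a.1.1 ((b.1.1 (v, 0)).1, 0)).1
      conv_lhs => rw [show b.1.1 (v, 0) = ((b.1.1 (v, 0)).1, 0) from Prod.ext rfl (b.2 v)] }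

/-- Second projection. -/
def par2 : parG F A B →* (End F B)ˣ := MonoidHom.toHomUnits
  { toFun := fun g => LinearMap.snd F A B ∘ₗ g.1.1 ∘ₗ LinearMap.inr F A B
    map_one' := rfl
    map_mul' := fun a b => LinearMap.ext fun v => by
      change (a.1.1 (b.1.1 (0, v))).2 = (a.1.1 (0, (b.1.1 (0, v)).2)).2
      conv_lhs => rw [show b.1.1 (0, v) = ((b.1.1 (0, v)).1, 0) + (0, (b.1.1 (0, v)).2) by simp,
        map_add, Prod.snd_add, a.2, zero_add] }

omit [DecidableEq F] in
open _root_.Classical in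
theorem sum_par (f : End F (A × B) → ℂ) :
    ∑ g : parG F A B, f g.1.1 =
      ∑ b, ∑ a, ∑ x, if IsUnit a ∧ IsUnit b then f (blk a x b) else 0 := by
  have := sum_blk (fun g : End F (A × B) => if IsUnit g ∧ Inv (W0 F A B) g then f g else 0)
    fun g h => if_neg fun e => h e.2
  have h1 : ∀ a x b, Inv (W0 F A B) (blk a x b) := fun a x b v hv => by
    rw [mem_W0] at hv ⊢; simp [hv]
  simp only [isUnit_blk, eq_true (h1 _ _ _), and_true] at this
  rw [← this]
  refine Fintype.sum_of_injective (fun g : parG F A B => g.1.1)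
    (Units.val_injective.comp Subtype.val_injective) _ _ (fun g hg => if_neg fun e => hg ?_)
    fun g => (if_pos ⟨g.1.isUnit, ?_⟩).symm
  · exact ⟨⟨e.1.unit, fun v => mem_W0.1 (e.2 _ (mem_W0.2 rfl))⟩, rfl⟩
  · rintro _ ⟨v, rfl⟩
    exact mem_W0.2 (g.2 v)

omit [DecidableEq F] in
theorem adj_nat {σ a f : Fam F} (hσ : IsChr σ) (ha : IsChr a) (hf : IsChr f) :
    ∃ m : ℕ, ip B a (adj A σ f) = m := by
  classical
  obtain ⟨m, hm⟩ := inner_char_eq_nat (char_mul (char_comp (hσ.chr A) par1)
    (char_comp (ha.chr B) par2)) (char_restrict (hf.chr (A × B)) (parG F A B))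
  refine ⟨m, hm ▸ ?_⟩
  have h1 : (Nat.card (parG F A B) : ℂ) =
      Nat.card (End F B)ˣ * (Nat.card (End F A)ˣ * Fintype.card (B →ₗ[F] A)) := by
    have := sum_par (F := F) (A := A) (B := B) fun _ => 1
    rw [sum_const, card_univ, ← Nat.card_eq_fintype_card, nsmul_one] at this
    rw [this, card_units, card_units, sum_mul]
    refine sum_congr rfl fun b _ => ?_
    rw [sum_mul, mul_sum]
    refine sum_congr rfl fun a _ => ?_
    by_cases h1 : IsUnit a <;> by_cases h2 : IsUnit b <;> simp [h1, h2]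
  have h2 := sum_par fun g : End F (A × B) =>
    σ A (LinearMap.fst F A B ∘ₗ g ∘ₗ LinearMap.inl F A B) *
      a B (LinearMap.snd F A B ∘ₗ g ∘ₗ LinearMap.inr F A B) * conj (f _ g)
  rw [inner_def, h1]
  refine Eq.trans ?_ (congrArg _ h2.symm)
  rw [ip, mul_inv, mul_assoc, mul_sum univ _ (_ * _)⁻¹]
  congr 1
  refine sum_congr rfl fun b _ => ?_
  simp only [adj, map_mul, map_inv₀, map_natCast, map_sum, Complex.conj_conj, mul_sum]
  refine sum_congr rfl fun c _ => sum_congr rfl fun x _ => ?_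
  have e1 : LinearMap.fst F A B ∘ₗ blk c x b ∘ₗ LinearMap.inl F A B = c := by ext; simp
  have e2 : LinearMap.snd F A B ∘ₗ blk c x b ∘ₗ LinearMap.inr F A B = b := by ext; simp
  rw [e1, e2]
  split_ifs with h
  · ring
  · rcases not_and_or.1 h with h | h
    · simp [hσ.onU _ _ h]
    · simp [ha.onU _ _ h]

theorem adj_chr {σ f : Fam F} (hσ : IsChr σ) (hf : IsChr f) : IsChr (adj A σ f) :=
  chr_of_nat (adj_cl σ hf.cl) (fun V _ _ _ g h => by
    have : ∀ (a : End F A) x, f _ (blk a x g) = 0 := fun a x =>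
      hf.onU _ _ fun e => h (isUnit_blk.1 e).2
    simp [adj, this]) fun V _ _ _ a ha => by
    obtain ⟨m, hm⟩ := adj_nat (A := A) (B := V) hσ ha hf
    exact ⟨m, by rw [← ip_conj, hm, map_natCast]⟩

omit [DecidableEq F] in
theorem hall_deg {σ a : Fam F} {k : ℕ} (h : Deg σ d) (h' : Deg a k) : Deg (hall σ a) (d + k) := by
  intro V _ _ _ g hV
  refine sum_eq_zero fun W _ => ?_
  by_cases h1 : Inv W g
  · rw [RR, QQ, dif_pos h1, dif_pos h1]
    by_cases h2 : finrank F W = d
    · rw [h' _ _ fun e => hV ?_, mul_zero]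
      rw [← W.finrank_quotient_add_finrank, e, h2, add_comm]
    · rw [h _ _ h2, zero_mul]
  · rw [RR_of_not h1, zero_mul]

omit [Fintype F] [DecidableEq F] in
theorem exists_prod (h : d ≤ finrank F V) :
    Nonempty (V ≃ₗ[F] (Fin d → F) × (Fin (finrank F V - d) → F)) :=
  ⟨LinearEquiv.ofFinrankEq _ _ (by simp [h])⟩

theorem hall_chr {σ a : Fam F} (hσ : IsChr σ) (ha : IsChr a) (hd : Deg σ d) : IsChr (hall σ a) :=
  chr_of_nat (hall_cl hσ.cl ha.cl) (fun V _ _ _ g h => sum_eq_zero fun W _ => by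
    by_cases h1 : Inv W g
    · rw [RR, QQ, dif_pos h1, dif_pos h1]
      by_contra e
      exact h (isUnit_of_inv h1 (not_not.1 fun e' => e (by rw [hσ.onU _ _ e', zero_mul]))
        (not_not.1 fun e' => e (by rw [ha.onU _ _ e', mul_zero])))
    · rw [RR_of_not h1, zero_mul]) fun V _ _ _ f hf => by
    by_cases h : d ≤ finrank F V
    · obtain ⟨e⟩ := exists_prod h
      rw [ip_congr e (hall_cl hσ.cl ha.cl) hf.cl, ip_hall hσ.cl ha.cl hf.cl (by simpa using hd)]
      exact adj_nat hσ ha hf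
    · refine ⟨0, ?_⟩
      rw [ip, sum_eq_zero, mul_zero, Nat.cast_zero]
      intro g _
      rw [hall, sum_eq_zero, zero_mul]
      intro W _
      rw [RR]
      split_ifs
      · rw [hd _ _ fun e => h (e ▸ W.finrank_le), zero_mul]
      · rw [zero_mul]

end CF.Cusp
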