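import Cfsg.Agent.Cusp.G

/-!
# Cuspidal families and cuspidal supports
-/

set_option autoImplicit false

open scoped ComplexConjugate MatrixGroups
open Cfsg Finset Module

namespace CF.Cusp
open CF.Char

universe u

variable {F : Type u} [Field F]
  {V V' A B : Type u} [AddCommGroup V] [Module F V] [FiniteDimensional F V]
  [AddCommGroup V'] [Module F V'] [FiniteDimensional F V']
  [AddCommGroup A] [Module F A] [FiniteDimensional F A]
  [AddCommGroup B] [Module F B] [FiniteDimensional F B] {d : ℕ}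

omit [FiniteDimensional F V] in
theorem radS_mul {C : Submodule F V} (n m : radS C) : n.1 * m.1 = 0 :=
  LinearMap.ext fun v => n.2.2 _ (m.2.1 v)

/-- The unipotent radical as a group. -/
def radHom (C : Submodule F V) : Multiplicative (radS C) →* (End F V)ˣ := MonoidHom.toHomUnits
  { toFun := fun n => 1 + n.toAdd.1
    map_one' := by simp
    map_mul' := fun a b => by simp [mul_add, add_mul, radS_mul, add_assoc, add_comm, add_left_comm] }

/-- The span of the first `m` basis vectors. -/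
def lowS (F : Type u) [Field F] (n m : ℕ) : Submodule F (Fin n → F) :=
  Submodule.pi {i | m ≤ i.1} fun _ => ⊥

theorem mem_lowS {n m : ℕ} {v : Fin n → F} : v ∈ lowS F n m ↔ ∀ i, m ≤ i.1 → v i = 0 := Iff.rfl

variable [Fintype F]

/-- The sum over the radical. -/
noncomputable def rsum (φ : Fam F) (C : Submodule F V) : ℂ := ∑ n : radS C, φ V (1 + n)

theorem rsum_eq (φ : Fam F) (C : Submodule F V) (g : End F V) :
    ∑ n : radS C, φ V (g * (1 + n)) = ∑ n, φ V (g * radHom C n) :=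
  Fintype.sum_equiv Multiplicative.ofAdd _ _ fun _ => rfl

theorem IsChr.rsum_nat {φ : Fam F} (h : IsChr φ) (C : Submodule F V) : ∃ m : ℕ, rsum φ C = m := by
  obtain ⟨m, hm⟩ := inner_char_eq_nat (char_comp (h.chr V) (radHom C)) char_const_one
  refine ⟨Nat.card (Multiplicative (radS C)) * m, ?_⟩
  have := rsum_eq φ C 1
  simp only [one_mul] at this
  rw [Nat.cast_mul, ← hm, card_mul_inner, rsum, this]
  simp

theorem IsChr.rsum_van {φ : Fam F} (h : IsChr φ) {C : Submodule F V} (h0 : rsum φ C = 0)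
    (g : End F V) : ∑ n : radS C, φ V (g * (1 + n)) = 0 := by
  rw [rsum_eq]
  by_cases hg : IsUnit g
  · obtain ⟨g, rfl⟩ := hg
    refine van (radHom C) (h.chr V) ?_ g
    have := rsum_eq φ C 1
    simp only [one_mul] at this
    exact this.symm.trans h0
  · exact sum_eq_zero fun n _ => h.onU _ _ fun e => hg ((Units.isUnit_mul_units _ _).1 e)

theorem rsum_map {φ : Fam F} (h : IsCl φ) (e : V ≃ₗ[F] V') (C : Submodule F V) :
    rsum φ (C.map e.toLinearMap) = rsum φ C := by
  refine (Fintype.sum_equiv (e.conj.toEquiv.subtypeEquiv fun n => ?_) _ _ fun n => ?_).symm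
  · change (∀ v, n v ∈ C) ∧ (∀ v ∈ C, n v = 0) ↔ (∀ v, e (n (e.symm v)) ∈ C.map e.toLinearMap) ∧
      ∀ v ∈ C.map e.toLinearMap, e (n (e.symm v)) = 0
    simp only [Submodule.mem_map_equiv, e.symm_apply_apply, map_eq_zero_iff _ e.injective]
    exact and_congr e.symm.surjective.forall (e.symm.surjective.forall)
  · exact h _ _ e _ _ fun v => by simp

theorem rsum_W0 (φ : Fam F) : rsum φ (W0 F A B) = ∑ x : B →ₗ[F] A, φ _ (blk 1 x 1) := by
  refine (Fintype.sum_bijective (fun x => ⟨LinearMap.inl F A B ∘ₗ x ∘ₗ LinearMap.snd F A B,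
    fun v => mem_W0.2 rfl, fun v hv => by simp [mem_W0.1 hv]⟩) ⟨fun x y e => ?_, fun n => ?_⟩
    _ _ fun x => ?_).symm
  · ext v
    simpa using LinearMap.congr_fun (congrArg Subtype.val e) (0, v)
  · refine ⟨LinearMap.fst F A B ∘ₗ n.1 ∘ₗ LinearMap.inr F A B, Subtype.ext (LinearMap.ext fun v => ?_)⟩
    have h1 := n.2.2 (v.1, 0) (mem_W0.2 rfl)
    have h2 : n.1 v = n.1 (0, v.2) := by
      conv_lhs => rw [show v = (v.1, 0) + (0, v.2) by simp, map_add, h1, zero_add]
    rw [h2]
    exact Prod.ext rfl (mem_W0.1 (n.2.1 _)).symm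
  · congr 1
    ext <;> simp

variable [DecidableEq F]

theorem finrank_lowS {n m : ℕ} (h : m ≤ n) : finrank F (lowS F n m) = m := by
  have h1 : Nat.card (lowS F n m) = #(lowV n F m) := by
    rw [← Fintype.card_coe, ← Nat.card_eq_fintype_card]
    exact Nat.card_congr (Equiv.subtypeEquivRight fun v => mem_lowV.symm)
  rw [Module.natCard_eq_pow_finrank (K := F), card_lowV h, Nat.card_eq_fintype_card] at h1
  exact Nat.pow_right_injective Fintype.one_lt_card h1

open _root_.Classical in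
theorem rsum_lowS {χ : GL (Fin d) F → ℂ} (h : IsClassFunction _ χ) (m : ℕ) :
    rsum (fam d χ) (lowS F d m) = ∑ g : GL (Fin d) F, if InP m g.1 then χ g else 0 := by
  let b := Pi.basisFun F (Fin d)
  have h1 : ∀ (n : radS (lowS F d m)) i j, (glE b (radHom _ (.ofAdd n))).1 i j =
      (1 : Matrix (Fin d) (Fin d) F) i j + n.1 (Pi.single j 1) i := fun n i j => by
    simp [glE_val, radHom, b, LinearMap.toMatrix_apply, Matrix.one_apply, Pi.single_apply]
  refine Fintype.sum_of_injective (fun n => glE b (radHom _ (.ofAdd n))) (fun n n' e => ?_) _ _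
    (fun g hg => if_neg fun e => hg ?_) fun n => ?_
  · exact Subtype.ext (add_left_cancel (congrArg Units.val ((glE b).injective e)))
  · refine ⟨⟨Matrix.toLin' (g.1 - 1), fun v i hi => ?_, fun v hv => funext fun i => ?_⟩, ?_⟩
    · have hi : m ≤ i.1 := hi
      change ∑ j, (g.1 - 1) i j * v j = 0
      exact sum_eq_zero fun j _ => by rw [e.sub i j (by omega), zero_mul]
    · change ∑ j, (g.1 - 1) i j * v j = 0
      refine sum_eq_zero fun j _ => ?_
      by_cases a : m ≤ j.1
      · rw [hv j a, mul_zero]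
      · rw [e.sub i j (by omega), zero_mul]
    · ext i j
      simp [h1, Matrix.one_apply, Pi.single_apply]
  · rw [if_pos, ← fam_eq h b]
    · rfl
    intro i j e
    rw [h1, add_eq_left]
    by_cases a : m ≤ i.1
    · exact n.2.1 _ i a
    · rw [n.2.2 _ (mem_lowS.2 fun l hl => Pi.single_eq_of_ne (fun e' => by omega) _),
        Pi.zero_apply]

theorem cuspF_fam {χ : GL (Fin d) F → ℂ} (h : IsCharacter _ χ) (hc : IsCusp χ) :
    CuspF (fam d χ) := by
  intro V _ _ _ C h1 h2
  by_cases hV : finrank F V = d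
  swap
  · exact fun g => sum_eq_zero fun n _ => fam_deg _ _ _ hV
  refine (fam_chr h).rsum_van ?_
  have h3 := Submodule.finrank_lt h2
  let e : V ≃ₗ[F] (Fin d → F) := LinearEquiv.ofFinrankEq _ _ (by simpa using hV)
  obtain ⟨e', he⟩ := exists_map_eq (W := C.map e.toLinearMap) (W' := lowS F d (finrank F C))
    (by rw [LinearEquiv.finrank_map_eq, finrank_lowS (by omega)])
  rw [← rsum_map (fam_chr h).cl e, ← rsum_map (fam_chr h).cl e', he,
    rsum_lowS (char_isClassFunction h)]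
  exact hc _ (Nat.pos_of_ne_zero (mt Submodule.finrank_eq_zero.1 h1)) (by omega)

theorem exists_cusp {f : Fam F} (hf : IsChr f) {n : ℕ} (hn : 0 < n) (h1 : f (Fin n → F) 1 ≠ 0) :
    ∃ d, 0 < d ∧ d ≤ n ∧ ∃ σ : IrrCharacter (GL (Fin d) F), IsCusp σ.1 ∧
      adj (Fin d → F) (fam d σ.1) f (Fin (n - d) → F) 1 ≠ 0 := by
  classical
  let P : ℕ → Prop := fun d => 0 < d ∧ ∃ (V : Type u) (_ : AddCommGroup V) (_ : Module F V)
    (_ : FiniteDimensional F V) (C : Submodule F V), finrank F V = n ∧ finrank F C = d ∧ rsum f C ≠ 0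
  have hP : ∃ d, P d := ⟨n, hn, Fin n → F, _, _, _, ⊤, by simp, by simp, by
    rw [rsum, sum_eq_single 0 (fun b _ hb => absurd (Subtype.ext (LinearMap.ext fun v =>
      b.2.2 v trivial)) hb) (by simp)]
    simpa using h1⟩
  obtain ⟨h0, V, _, _, _, C, hV, hC, hs⟩ := Nat.find_spec hP
  have hmin := fun m (h : m < Nat.find hP) => Nat.find_min hP h
  set d := Nat.find hP
  have hd : d ≤ n := hC ▸ hV ▸ C.finrank_le
  refine ⟨d, h0, hd, ?_⟩
  let A := Fin d → F
  let B := Fin (n - d) → F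
  have hAB : finrank F (A × B) = n := by simp [A, B, hd]
  let e : V ≃ₗ[F] A × B := LinearEquiv.ofFinrankEq _ _ (hV.trans hAB.symm)
  obtain ⟨e', he⟩ := exists_map_eq (W := C.map e.toLinearMap) (W' := W0 F A B) (by
    rw [LinearEquiv.finrank_map_eq, hC, LinearMap.finrank_range_of_inj LinearMap.inl_injective]
    simp [A])
  rw [← rsum_map hf.cl e, ← rsum_map hf.cl e', he, rsum_W0] at hs
  let ρ : Fam F := fun A _ _ _ g => (Fintype.card (B →ₗ[F] A) : ℂ)⁻¹ * ∑ x, f (A × B) (blk g x 1)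
  have ρ1 : IsCl ρ := by
    intro V V' _ _ _ _ _ _ e g g' hg
    simp only [ρ]
    rw [card_hom, card_hom, e.finrank_eq]
    congr 1
    refine Fintype.sum_equiv ((LinearEquiv.refl F B).arrowCongr e).toEquiv _ _ fun x => ?_
    rw [hf.cl _ _ (e.prodCongr (LinearEquiv.refl F B)) (blk g x 1)]
    intro v
    simp [hg]
  have ρ2 : OnU ρ := fun V _ _ _ g h => by
    have : ∀ x : B →ₗ[F] V, f _ (blk g x 1) = 0 := fun x =>
      hf.onU _ _ fun e => h (isUnit_blk.1 e).1
    simp [ρ, this]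
  have ρ3 : ∀ σ : Fam F, ip A ρ σ = adj A σ f B 1 := fun σ => by
    simp only [ip, adj, ρ, mul_inv, mul_sum, sum_mul]
    exact sum_congr rfl fun a _ => sum_congr rfl fun x _ => by ring
  have hA : finrank F A = d := by simp [A]
  have ρ4 : ρ A 1 ≠ 0 := mul_ne_zero (inv_ne_zero card_hom_ne) hs
  rw [expand ρ1 ρ2 hA] at ρ4
  obtain ⟨σ, -, hσ⟩ := exists_ne_zero_of_sum_ne_zero ρ4
  refine ⟨σ, fun m a1 a2 => ?_, ρ3 _ ▸ left_ne_zero_of_mul hσ⟩
  rw [← rsum_lowS (irr_isClassFunction σ.2)]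
  choose k hk using fun σ : IrrCharacter (GL (Fin d) F) =>
    char_one_eq_nat ((adj_chr (A := A) (fam_chr (irr_isCharacter σ.2)) hf).chr B)
  choose s hs using fun σ : IrrCharacter (GL (Fin d) F) =>
    (fam_chr (irr_isCharacter σ.2)).rsum_nat (lowS F d m)
  simp only [Units.val_one, ← ρ3] at hk
  have h2 : rsum ρ (lowS F d m) = (∑ σ, k σ * s σ : ℕ) := by
    change ∑ n : radS (lowS F d m), ρ A (1 + n.1) = _
    simp only [expand ρ1 ρ2 hA, hk]
    rw [sum_comm]
    simp only [← mul_sum, ← hs, rsum, Nat.cast_sum, Nat.cast_mul]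
    rfl
  let C' := (lowS F d m).map (LinearMap.inl F A B)
  have h3 : rsum f C' = 0 := by
    by_contra e
    refine hmin m a2 ⟨a1, A × B, _, _, _, C', hAB, ?_, e⟩
    rw [← finrank_lowS (F := F) a2.le]
    exact (Submodule.equivMapOfInjective _ LinearMap.inl_injective _).finrank_eq.symm
  have h4 : ∑ p : radS (lowS F d m) × (B →ₗ[F] A), f _ (blk (1 + p.1.1) p.2 1) = 0 := by
    have : ∀ N : radS C', ∑ p : radS (lowS F d m) × (B →ₗ[F] A), f _ (blk (1 + p.1.1) p.2 1) =
        ∑ p : radS (lowS F d m) × (B →ₗ[F] A), f _ (blk (1 + p.1.1) p.2 1 * (1 + N.1)) := by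
      intro N
      have b1 : ∀ v, (N.1 v).1 ∈ lowS F d m ∧ (N.1 v).2 = 0 := fun v => by
        obtain ⟨y, hy, e⟩ := N.2.1 v
        rw [← e]
        exact ⟨hy, rfl⟩
      refine (Fintype.sum_equiv (Equiv.addRight (⟨LinearMap.fst F A B ∘ₗ N.1 ∘ₗ LinearMap.inl F A B,
        fun v => (b1 _).1, fun v hv => congrArg Prod.fst (N.2.2 _ ⟨v, hv, rfl⟩)⟩,
        LinearMap.fst F A B ∘ₗ N.1 ∘ₗ LinearMap.inr F A B)) _ _ fun p => ?_).symm
      congr 1
      refine LinearMap.ext fun v => ?_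
      have b2 : (N.1 v).1 = (N.1 (v.1, 0)).1 + (N.1 (0, v.2)).1 := by
        rw [← Prod.fst_add, ← map_add]; simp
      have b3 := p.1.2.2 _ (b1 v).1
      refine Prod.ext ?_ (by simp [(b1 v).2])
      simp [(b1 v).2, b3]
      rw [b2]
      abel
    have h5 := sum_congr (s₁ := univ) rfl fun N _ => this N
    rw [sum_const, sum_comm] at h5
    simpa [hf.rsum_van h3] using h5
  have h5 : rsum ρ (lowS F d m) = 0 := by
    rw [Fintype.sum_prod_type] at h4
    change ∑ n : radS (lowS F d m), ρ A (1 + n.1) = _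
    simp only [ρ, ← mul_sum, h4, mul_zero]
  rw [h5, eq_comm, Nat.cast_eq_zero, sum_eq_zero_iff] at h2
  rw [hs, (mul_eq_zero.1 (h2 σ (mem_univ _))).resolve_left fun e => ?_, Nat.cast_zero]
  exact left_ne_zero_of_mul hσ (by rw [hk, e, Nat.cast_zero])

end CF.Cusp
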