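import Cfsg.Agent.Cusp.H

/-!
# The Whittaker multiplicity is multiplicative
-/

set_option autoImplicit false

open scoped ComplexConjugate MatrixGroups
open Cfsg Finset Module Matrix

namespace CF.Cusp
open CF.Char

universe u

variable {F : Type u} [Field F] {n k d : ℕ}

/-- A unitriangular matrix as a unit. -/
noncomputable def uOf (M : Matrix (Fin n) (Fin n) F) (h : InU 0 M) : GL (Fin n) F :=
  GeneralLinearGroup.mkOfDetNeZero M (by
    rw [det_of_upperTriangular (inU_zero.1 h).1]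
    simp [(inU_zero.1 h).2])

/-- Block matrices. -/
def fb (M : Matrix (Fin k) (Fin k) F) (X : Matrix (Fin k) (Fin d) F) (N : Matrix (Fin d) (Fin d) F) :
    Matrix (Fin (k + d)) (Fin (k + d)) F :=
  reindex finSumFinEquiv finSumFinEquiv (fromBlocks M X 0 N)

section fb
variable (M : Matrix (Fin k) (Fin k) F) (X : Matrix (Fin k) (Fin d) F) (N : Matrix (Fin d) (Fin d) F)

@[simp] theorem fb11 (i j : Fin k) : fb M X N (Fin.castAdd d i) (Fin.castAdd d j) = M i j := by
  simp [fb]
@[simp] theorem fb12 (i : Fin k) (j : Fin d) :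
    fb M X N (Fin.castAdd d i) (Fin.natAdd k j) = X i j := by simp [fb]
@[simp] theorem fb21 (i : Fin d) (j : Fin k) :
    fb M X N (Fin.natAdd k i) (Fin.castAdd d j) = 0 := by simp [fb]
@[simp] theorem fb22 (i j : Fin d) : fb M X N (Fin.natAdd k i) (Fin.natAdd k j) = N i j := by
  simp [fb]

theorem inU_fb : InU 0 (fb M X N) ↔ InU 0 M ∧ InU 0 N := by
  simp only [InU, Fin.forall_fin_add, fb11, fb12, fb21, fb22, one_apply, Fin.le_def, Fin.ext_iff,
    Fin.val_castAdd, Fin.val_natAdd, Nat.not_lt_zero, false_or, add_le_add_iff_left,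
    add_right_inj, forall_and]
  refine ⟨fun h => ⟨h.1.1, h.2.2⟩, fun h => ⟨⟨h.1, fun i j e => ?_⟩, fun i j _ => ?_, h.2⟩⟩
  · rw [if_neg (by omega)]
  · omega

/-- The corner entry. -/
def cor (X : Matrix (Fin k) (Fin d) F) : F := ∑ i, ∑ j, if k + j.1 = i.1 + 1 then X i j else 0

theorem sd_fb : sd 0 (fb M X N) = sd 0 M + sd 0 N + cor X := by
  simp only [sd, cor, Fin.sum_univ_add, fb11, fb12, fb21, fb22, Fin.val_castAdd, Fin.val_natAdd,
    zero_le, and_true, ite_self, sum_const_zero, zero_add, sum_add_distrib, add_assoc,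
    add_right_inj]
  exact add_comm _ _

variable {M N} in
theorem cor_shift (h : InU 0 M) (h' : InU 0 N) (S : Matrix (Fin k) (Fin d) F) :
    cor (X + S * N - M * S) = cor X := by
  refine sum_congr rfl fun i _ => sum_congr rfl fun j _ => ?_
  split_ifs with e
  · have h1 : (S * N) i j = S i j := by
      conv_rhs => rw [← Matrix.mul_one S]
      rw [mul_apply, mul_apply]
      exact sum_congr rfl fun l _ => by rw [h' l j (Or.inr (by rw [Fin.le_def]; omega))]
    have h2 : (M * S) i j = S i j := by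
      conv_rhs => rw [← Matrix.one_mul S]
      rw [mul_apply, mul_apply]
      exact sum_congr rfl fun l _ => by rw [h i l (Or.inr (by rw [Fin.le_def]; omega))]
    simp [h1, h2]
  · rfl

variable (F k d) in
/-- Splitting coordinates. -/
def spl : (Fin (k + d) → F) ≃ₗ[F] (Fin k → F) × (Fin d → F) :=
  (LinearEquiv.funCongrLeft F F finSumFinEquiv).trans (LinearEquiv.sumArrowLequivProdArrow _ _ F F)

theorem spl_fb (v : Fin (k + d) → F) :
    spl F k d (toLin' (fb M X N) v) = blk (toLin' M) (toLin' X) (toLin' N) (spl F k d v) := by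
  ext i <;> simp [spl, mulVec, dotProduct, Fin.sum_univ_add]

theorem map_lowS : (lowS F (k + d) k).map (spl F k d).toLinearMap = W0 F _ _ := by
  ext v
  obtain ⟨v, rfl⟩ := (spl F k d).surjective v
  rw [Submodule.mem_map_equiv, LinearEquiv.symm_apply_apply, mem_W0, mem_lowS, funext_iff]
  simp only [Fin.forall_fin_add, Fin.val_castAdd, Fin.val_natAdd, le_add_iff_nonneg_right, zero_le,
    forall_const]
  exact and_iff_right fun i e => by omega

end fb

variable [Fintype F] [DecidableEq F] {θ : AddChar F ℂ}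

open _root_.Classical in
theorem sum_uSet (f : Matrix (Fin n) (Fin n) F → ℂ) :
    ∑ g ∈ uSet n F 0, f g.1 = ∑ M, if InU 0 M then f M else 0 := by
  rw [← sum_filter]
  refine sum_bij (fun g _ => g.1) (fun g hg => by simpa using mem_uSet.1 hg)
    (fun _ _ _ _ e => Units.ext e) (fun M hM => ?_) fun _ _ => rfl
  exact ⟨uOf M (mem_filter.1 hM).2, mem_uSet.2 (mem_filter.1 hM).2, rfl⟩

theorem sum_fb (f : Matrix (Fin (k + d)) (Fin (k + d)) F → ℂ) :
    ∑ g ∈ uSet (k + d) F 0, f g.1 =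
      ∑ a ∈ uSet k F 0, ∑ b ∈ uSet d F 0, ∑ X, f (fb a.1 X b.1) := by
  classical
  rw [sum_uSet, sum_uSet fun a => ∑ b ∈ uSet d F 0, ∑ X, f (fb a X b.1)]
  have : ∀ a, (if InU 0 a then ∑ b ∈ uSet d F 0, ∑ X, f (fb a X b.1) else 0) =
      ∑ b, ∑ X, if InU 0 (fb a X b) then f (fb a X b) else 0 := fun a => by
    rw [sum_uSet fun b => ∑ X, f (fb a X b)]
    simp only [inU_fb]
    split_ifs with h
    · exact sum_congr rfl fun b _ => by by_cases hb : InU 0 b <;> simp [h, hb]
    · simp [h]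
  simp only [this, ← Fintype.sum_prod_type']
  refine (Fintype.sum_of_injective (fun p : _ × _ × _ => fb p.1 p.2.2 p.2.1) ?_ _ _
    (fun g hg => if_neg fun e => hg ?_) fun _ => rfl).symm
  · rintro ⟨a, b, x⟩ ⟨a', b', x'⟩ e
    simp only [fb, EmbeddingLike.apply_eq_iff_eq, fromBlocks_inj] at e
    rw [e.1, e.2.1, e.2.2.2]
  · refine ⟨(g.submatrix (Fin.castAdd d) (Fin.castAdd d), g.submatrix (Fin.natAdd k) (Fin.natAdd k),
      g.submatrix (Fin.castAdd d) (Fin.natAdd k)), ?_⟩
    ext i j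
    induction i using Fin.addCases <;> induction j using Fin.addCases <;> simp
    rename_i i j
    rw [e _ _ (Or.inr (by simp [Fin.le_def]; omega)), one_apply_ne]
    simp [Fin.ext_iff]
    omega

theorem exists_step {W : Submodule F (Fin (k + d) → F)} (hW : finrank F W = d)
    (h : lowS F (k + d) k ⊓ W ≠ ⊥) : ∃ (i i' : Fin (k + d)) (w : Fin (k + d) → F)
    (l : (Fin (k + d) → F) →ₗ[F] F), i'.1 = i.1 + 1 ∧ w ∈ W ∧ w i ≠ 0 ∧ (∀ j, i < j → w j = 0) ∧
      l (Pi.single i' 1) ≠ 0 ∧ (∀ v ∈ W, l v = 0) ∧ ∀ j, j ≤ i → l (Pi.single j 1) = 0 := by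
  classical
  let J : Fin (k + d) → Prop := fun i => ∃ w ∈ W, w i ≠ 0 ∧ ∀ j, i < j → w j = 0
  obtain ⟨w, ⟨h1, h2⟩, h3⟩ := (Submodule.ne_bot_iff _).1 h
  obtain ⟨i0, h4, h5⟩ := exists_max_image {i | w i ≠ 0} id (by
    obtain ⟨i, hi⟩ := Function.ne_iff.1 h3
    exact ⟨i, by simpa using hi⟩)
  simp only [mem_filter, mem_univ, true_and, id] at h4 h5
  have h6 : i0.1 < k := not_le.1 fun e => h4 (h1 i0 e)
  obtain ⟨i, i', e, ⟨w, a1, a2, a3⟩, a4⟩ : ∃ i i' : Fin (k + d), i'.1 = i.1 + 1 ∧ J i ∧ ¬ J i' := by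
    by_contra! hc
    have b1 : ∀ (m : ℕ) (j : Fin (k + d)), j.1 = i0.1 + m → J j := by
      intro m
      induction m with
      | zero =>
        intro j e
        obtain rfl : j = i0 := Fin.ext e
        exact ⟨w, h2, h4, fun l hl => not_not.1 fun e => (h5 l e).not_gt hl⟩
      | succ m ih => exact fun j e => hc ⟨i0 + m, by omega⟩ j e (ih _ rfl)
    have b2 : ∀ m, k ≤ m → lowS F (k + d) m ≤ lowS F (k + d) k ⊔ W := by
      intro m hm
      induction hm with
      | refl => exact le_sup_left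
      | @step m hm ih =>
        intro v hv
        by_cases c : m < k + d
        · have hm : k ≤ m := hm
          obtain ⟨y, c1, c2, c3⟩ := b1 (m - i0) ⟨m, c⟩ (by simp only; omega)
          rw [← sub_add_cancel v ((v ⟨m, c⟩ / y ⟨m, c⟩) • y)]
          refine Submodule.add_mem _ (ih (mem_lowS.2 fun j hj => ?_))
            (Submodule.mem_sup_right (W.smul_mem _ c1))
          rcases hj.eq_or_lt with c4 | c4
          · obtain rfl : j = ⟨m, c⟩ := Fin.ext c4.symm
            simp [c2]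
          · simp [mem_lowS.1 hv j c4, c3 j c4]
        · exact ih (mem_lowS.2 fun j hj => by omega)
    have b3 : lowS F (k + d) k ⊔ W = ⊤ :=
      top_unique fun v _ => b2 (k + d) (by omega) (mem_lowS.2 fun j hj => by omega)
    have := Submodule.finrank_sup_add_finrank_inf_eq (lowS F (k + d) k) W
    rw [b3, finrank_lowS (by omega), hW, finrank_top, finrank_fin_fun, add_eq_left] at this
    exact h (Submodule.finrank_eq_zero.1 this)
  obtain ⟨l, b1, b2⟩ := Submodule.exists_le_ker_of_notMem (p := W ⊔ lowS F (k + d) i')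
    (v := Pi.single i' 1) fun c => by
      obtain ⟨y, c1, z, c2, c3⟩ := Submodule.mem_sup.1 c
      refine a4 ⟨y, c1, ?_, fun j hj => ?_⟩
      · have := congrFun c3 i'
        rw [Pi.add_apply, mem_lowS.1 c2 i' le_rfl, add_zero, Pi.single_eq_same] at this
        rw [this]
        exact one_ne_zero
      · have := congrFun c3 j
        rwa [Pi.add_apply, mem_lowS.1 c2 j hj.le, add_zero, Pi.single_eq_of_ne hj.ne'] at this
  refine ⟨i, i', w, l, e, a1, a2, a3, b1, fun v hv => b2 (Submodule.mem_sup_left hv), fun j hj =>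
    b2 (Submodule.mem_sup_right (mem_lowS.2 fun m hm => Pi.single_eq_of_ne (fun c => ?_) _))⟩
  rw [Fin.le_def] at hj
  omega

variable (θ n) in
/-- The Whittaker sum. -/
noncomputable def gs (φ : Fam F) : ℂ := ∑ g ∈ uSet n F 0, φ _ (toLin' g.1) * θ (sd 0 g.1)

theorem gs_van (hθ : θ ≠ 1) {σ a : Fam F} (hd : Deg σ d) {W : Submodule F (Fin (k + d) → F)}
    (h : lowS F (k + d) k ⊓ W ≠ ⊥) :
    ∑ g ∈ uSet (k + d) F 0, RR σ W (toLin' g.1) * QQ a W (toLin' g.1) * θ (sd 0 g.1) = 0 := by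
  by_cases hW : finrank F W = d
  swap
  · refine sum_eq_zero fun g _ => ?_
    rw [RR]
    split_ifs
    · rw [hd _ _ hW, zero_mul, zero_mul]
    · rw [zero_mul, zero_mul]
  obtain ⟨i, i', w, l, e, h1, h2, h3, h4, h5, h6⟩ := exists_step hW h
  obtain ⟨t, ht⟩ := exists_ne_one hθ (mul_ne_zero h2 h4)
  let N : Matrix (Fin (k + d)) (Fin (k + d)) F := of fun a b => t * (w a * l (Pi.single b 1))
  have a1 : InU 0 (1 + N) := fun a b c => by
    rw [Matrix.add_apply, add_eq_left]
    change t * (w a * _) = 0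
    by_cases c' : i < a
    · rw [h3 a c', zero_mul, mul_zero]
    · rw [h6 b ((c.resolve_left (Nat.not_lt_zero _)).trans (not_lt.1 c')), mul_zero, mul_zero]
  have a2 : ∀ v, toLin' N v = (t * l v) • w := fun v => by
    ext a
    conv_rhs => rw [pi_eq_sum_univ' v, map_sum]
    simp only [toLin'_apply, mulVec, dotProduct, N, of_apply, map_smul, smul_eq_mul, Pi.smul_apply,
      mul_sum, sum_mul]
    exact sum_congr rfl fun b _ => by ring
  have a3 : ∀ v ∈ W, toLin' N v = 0 := fun v hv => by rw [a2, h5 v hv, mul_zero, zero_smul]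
  have a4 : ∀ v, toLin' N v ∈ W := fun v => a2 v ▸ W.smul_mem _ h1
  have a5 : toLin' N * toLin' N = 0 := LinearMap.ext fun v => a3 _ (a4 v)
  have a6 : sd 0 (1 + N) = t * (w i * l (Pi.single i' 1)) := by
    rw [sd_add, sd_one, zero_add, sd, sum_eq_single i _ (by simp), sum_eq_single i' _ (by simp),
      if_pos ⟨e, zero_le⟩]
    · rfl
    · exact fun j _ hj => if_neg fun c => hj (Fin.ext (by omega))
    · refine fun a _ ha => sum_eq_zero fun b _ => ?_
      split_ifs with c
      · change t * (w a * _) = 0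
        rcases lt_or_gt_of_ne ha with c' | c'
        · rw [h6 b (by rw [Fin.lt_def] at c'; rw [Fin.le_def]; omega), mul_zero, mul_zero]
        · rw [h3 a c', zero_mul, mul_zero]
      · rfl
  refine sum_shift _ (Equiv.mulRight (uOf _ a1)) (fun g => ?_) _ ht fun g hg => ?_
  · rw [mem_uSet, mem_uSet, ← mem_Uni, ← mem_Uni, Equiv.coe_mulRight,
      Subgroup.mul_mem_cancel_right _ (show uOf _ a1 ∈ Uni _ F from a1)]
  · have : (Equiv.mulRight (uOf _ a1) g).1 = g.1 * (1 + N) := rfl
    rw [this, sd_mul _ (mem_uSet.1 hg) a1, a6, toLin'_mul, map_add, toLin'_one,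
      ← End.mul_eq_comp, ← End.one_eq_id, RR_mul a3 a5, QQ_mul a4 a5, AddChar.map_add_eq_mul]
    ring

theorem gs_hall (hθ : θ ≠ 1) {σ a : Fam F} (hσ : IsCl σ) (ha : IsCl a) (hd : Deg σ d) :
    gs (k + d) θ (hall σ a) = (Fintype.card F : ℂ) ^ (d * k) * (gs d θ σ * gs k θ a) := by
  classical
  have h1 : gs (k + d) θ (hall σ a) = ∑ g ∈ uSet (k + d) F 0,
      (∑ W ∈ univ.filter fun W => lowS F (k + d) k ⊓ W = ⊥,
        RR σ W (toLin' g.1) * QQ a W (toLin' g.1)) * θ (sd 0 g.1) := by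
    simp only [gs, hall, sum_mul]
    rw [sum_comm, sum_comm (s := uSet _ _ _), sum_filter]
    exact sum_congr rfl fun W _ => by
      split_ifs with h
      · rfl
      · exact gs_van hθ hd h
  rw [h1, sum_fb fun g => (∑ W ∈ univ.filter fun W => lowS F (k + d) k ⊓ W = ⊥,
    RR σ W (toLin' g) * QQ a W (toLin' g)) * θ (sd 0 g), gs, gs, mul_comm (∑ _ ∈ _, _),
    sum_mul_sum, mul_sum]
  refine sum_congr rfl fun M hM => ?_
  rw [mul_sum]
  refine sum_congr rfl fun N hN => ?_
  have h2 := graph hσ ha (toLin' M.1) (toLin' N.1) (fun x => θ (cor (LinearMap.toMatrix' x)))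
    fun x S => by
      simp only [map_add, map_sub, LinearMap.toMatrix'_comp, LinearMap.toMatrix'_toLin']
      rw [cor_shift _ (mem_uSet.1 hM) (mem_uSet.1 hN)]
  have h0 : ∀ b : End F (_ ⧸ (⊤ : Submodule F (Fin d → F))), a _ (blk (toLin' M.1) 0 b) =
      a _ (toLin' M.1) := fun b => ha _ _ LinearEquiv.prodUnique _ _ (by simp)
  rw [sum_eq_single (⊤ : Submodule F (Fin d → F)) (fun B' _ hB => by
    rw [RR]
    split_ifs
    · rw [hd _ _ (by simpa using (Submodule.finrank_lt hB).ne), zero_mul, mul_zero]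
    · rw [zero_mul, mul_zero]) (by simp), dif_pos (show Inv ⊤ (toLin' N.1) from fun _ _ => Submodule.mem_top),
    RR_eq hσ (g := toLin' N.1) (a := toLin' N.1) LinearMap.id Function.injective_id
      LinearMap.range_id (fun _ => rfl),
    Fintype.sum_subsingleton _ (0 : (_ ⧸ (⊤ : Submodule F (Fin d → F))) →ₗ[F] Fin k → F),
    h0, card_hom]
    at h2
  simp only [LinearMap.zero_comp, map_zero, cor, Matrix.zero_apply, ite_self, sum_const_zero,
    AddChar.map_zero_eq_one, finrank_top, finrank_fin_fun, Nat.cast_pow] at h2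
  have h3 : ∑ X, (∑ W ∈ univ.filter fun W => lowS F (k + d) k ⊓ W = ⊥,
      RR σ W (toLin' (fb M.1 X N.1)) * QQ a W (toLin' (fb M.1 X N.1))) * θ (sd 0 (fb M.1 X N.1)) =
      (θ (sd 0 M.1) * θ (sd 0 N.1)) * ∑ x, θ (cor (LinearMap.toMatrix' x)) *
        ∑ W ∈ univ.filter fun W => W0 F _ _ ⊓ W = ⊥,
          RR σ W (blk (toLin' M.1) x (toLin' N.1)) * QQ a W (blk (toLin' M.1) x (toLin' N.1)) := by
    rw [mul_sum]
    refine Fintype.sum_equiv toLin'.toEquiv _ _ fun X => ?_
    rw [sd_fb, AddChar.map_add_eq_mul, AddChar.map_add_eq_mul, mul_comm, mul_assoc]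
    simp only [LinearEquiv.coe_toEquiv, LinearMap.toMatrix'_toLin']
    congr 2
    refine sum_equiv (Submodule.orderIsoMapComap (spl F k d)).toEquiv (fun W => ?_) fun W _ => ?_
    · simp only [mem_filter, mem_univ, true_and, ← map_lowS]
      change _ ↔ _ ⊓ W.map (spl F k d).toLinearMap = ⊥
      rw [← Submodule.map_inf _ (spl F k d).injective, Submodule.map_eq_bot_iff]
    · rw [← RR_map hσ _ (spl_fb M.1 X N.1), ← QQ_map ha _ (spl_fb M.1 X N.1)]
      rfl
  rw [h3]
  simp only [cor]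
  rw [h2]
  ring

theorem card_uSet_add : (#(uSet (k + d) F 0) : ℂ) =
    (Fintype.card F : ℂ) ^ (d * k) * (#(uSet d F 0) * #(uSet k F 0)) := by
  have := sum_fb (k := k) (d := d) (F := F) fun _ => 1
  have e : Fintype.card (Matrix (Fin k) (Fin d) F) = (Fintype.card F ^ d) ^ k := by
    rw [Fintype.card_congr Matrix.of.symm]
    simp
  simp only [sum_const, nsmul_eq_mul, mul_one, card_univ, e, Nat.cast_pow] at this
  rw [this, pow_mul]
  ring

variable (θ n) in
/-- The Whittaker multiplicity. -/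
noncomputable def gm (φ : Fam F) : ℂ := (#(uSet n F 0) : ℂ)⁻¹ * gs n θ φ

theorem gm_hall (hθ : θ ≠ 1) {σ a : Fam F} (hσ : IsCl σ) (ha : IsCl a) (hd : Deg σ d) :
    gm (k + d) θ (hall σ a) = gm d θ σ * gm k θ a := by
  have h1 := card_uSet_ne (n := k) (F := F) 0
  have h2 := card_uSet_ne (n := d) (F := F) 0
  have h3 : (Fintype.card F : ℂ) ≠ 0 := Nat.cast_ne_zero.2 Fintype.card_ne_zero
  rw [gm, gm, gm, gs_hall hθ hσ ha hd, card_uSet_add]
  field_simp

theorem gm_fam [Fintype (Uni n F)] {χ : GL (Fin n) F → ℂ} (h : IsClassFunction _ χ) :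
    gm n θ⁻¹ (fam n χ) = gam (Uni n F) (psi n θ) χ := by
  rw [gam_eq, gm, gs]
  congr 1
  refine sum_congr rfl fun g _ => ?_
  let b := Pi.basisFun F (Fin n)
  have := fam_eq h b ((glE b).symm g)
  rw [MulEquiv.apply_symm_apply] at this
  rw [← this]
  rfl

end CF.Cusp
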