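import Cfsg.Agent.Cusp.I

/-!
# Harish-Chandra series of `GL_n(q)`
-/

set_option autoImplicit false

open scoped ComplexConjugate MatrixGroups
open Cfsg Finset Module

namespace CF.Cusp
open CF.Char

universe u

variable (F : Type u) [Field F] [Fintype F] [DecidableEq F]

/-- All cuspidal characters. -/
structure CC where
  deg : ℕ
  chi : IrrCharacter (GL (Fin deg) F)
  pos : 0 < deg
  isC : IsCusp chi.1

variable {F}

noncomputable instance instDecEqCC : DecidableEq (CC F) := Classical.decEq _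

/-- The family of a cuspidal character. -/
noncomputable def CC.fm (c : CC F) : Fam F := fam c.deg c.chi.1

theorem CC.chr (c : CC F) : IsChr c.fm := fam_chr (irr_isCharacter c.chi.2)

theorem CC.cusp (c : CC F) : CuspF c.fm := cuspF_fam (irr_isCharacter c.chi.2) c.isC

theorem CC.dg (c : CC F) : Deg c.fm c.deg := fam_deg _

instance instNontrivialCC (c : CC F) : Nontrivial (Fin c.deg → F) :=
  have : Nonempty (Fin c.deg) := ⟨⟨0, c.pos⟩⟩
  inferInstance

theorem ip_CC (c c' : CC F) : ip (Fin c.deg → F) c'.fm c.fm = if c' = c then 1 else 0 := by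
  obtain ⟨d, σ, h, h1⟩ := c
  obtain ⟨d', σ', h', h1'⟩ := c'
  by_cases e : d' = d
  · subst e
    classical
    refine (ip_fam_fam (finrank_fin_fun F) σ' σ).trans ?_
    simp
  · rw [if_neg fun e' => e (congrArg CC.deg e'), ip, sum_eq_zero, mul_zero]
    exact fun g _ => by rw [CC.dg _ _ _ (by simpa using Ne.symm e), zero_mul]

/-- Products of cuspidal characters. -/
noncomputable def piL : List (CC F) → Fam F
  | [] => fam 0 fun _ => 1
  | c :: L => hall c.fm (piL L)

theorem piL_chr : ∀ L : List (CC F), IsChr (piL L)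
  | [] => fam_chr char_const_one
  | c :: L => hall_chr c.chr (piL_chr L) c.dg

theorem piL_deg : ∀ L : List (CC F), Deg (piL L) (L.map CC.deg).sum
  | [] => fam_deg _
  | c :: L => hall_deg c.dg (piL_deg L)

/-- The number of matchings. -/
noncomputable def nn : List (CC F) → List (CC F) → ℕ
  | [], L' => if L' = [] then 1 else 0
  | c :: L, L' => L'.count c * nn L (L'.erase c)

theorem nn_perm : ∀ (L : List (CC F)) {L1 L2 : List (CC F)}, L1.Perm L2 → nn L L1 = nn L L2
  | [], _, _, h => if_congr ⟨fun e => (e ▸ h).symm.eq_nil, fun e => (e ▸ h).eq_nil⟩ rfl rfl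
  | c :: L, _, _, h => by rw [nn, nn, h.count_eq, nn_perm L (h.erase c)]

theorem perm_of_nn : ∀ (L L' : List (CC F)), nn L L' ≠ 0 → L.Perm L'
  | [], L', h => by
    rw [nn] at h
    rw [of_not_not fun e => h (if_neg e)]
  | c :: L, L', h => ((perm_of_nn L _ (right_ne_zero_of_mul h)).cons c).trans
    (List.perm_cons_erase (List.count_pos_iff.1 (Nat.pos_of_ne_zero (left_ne_zero_of_mul h)))).symm

/-- The derivation formula for a list. -/
def AdjL (L : List (CC F)) : Prop := ∀ c : CC F, @Eq (Fam F) (adj (Fin c.deg → F) c.fm (piL L))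
  fun V _ _ _ g => L.count c * piL (L.erase c) V g

theorem ip_piL : ∀ (L L' : List (CC F)), (∀ M : List (CC F), M.length ≤ L'.length → AdjL M) →
    ∀ (V : Type u) [AddCommGroup V] [Module F V] [FiniteDimensional F V],
      finrank F V = (L.map CC.deg).sum → ip V (piL L) (piL L') = nn L L'
  | [], [], _, V, _, _, _, hV => by
    have := ip_fam_fam (F := F) hV (oneIrr _) (oneIrr _)
    rw [if_pos rfl] at this
    exact this.trans (by simp [nn])
  | [], c :: L', _, V, _, _, _, hV => by
    rw [ip, sum_eq_zero, mul_zero]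
    · simp [nn]
    · intro g _
      have := c.pos
      rw [piL_deg (c :: L') _ _ (by simp [hV]; omega), map_zero, mul_zero]
  | c :: L, L', h, V, _, _, _, hV => by
    obtain ⟨e⟩ := exists_prod (F := F) (V := V) (d := c.deg) (by simp [hV])
    rw [ip_congr e (piL_chr _).cl (piL_chr _).cl, piL, ip_hall c.chr.cl (piL_chr _).cl (piL_chr _).cl
      (by simpa using c.dg), h L' le_rfl c, nn, Nat.cast_mul, ← ip_piL L (L'.erase c)
      (fun M hM => h M (hM.trans List.length_erase_le)) (Fin (finrank F V - c.deg) → F)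
      (by simp [hV])]
    simp only [ip, mul_sum, map_mul, map_natCast]
    exact sum_congr rfl fun g _ => by ring

theorem piL_perm' {L L' : List (CC F)} (hp : L.Perm L')
    (h : ∀ M : List (CC F), M.length ≤ L.length → AdjL M) : piL L = piL L' := by
  funext V _ _ _ g
  have hd : (L.map CC.deg).sum = (L'.map CC.deg).sum := (hp.map _).sum_eq
  by_cases hV : finrank F V = (L.map CC.deg).sum
  swap
  · rw [piL_deg _ _ _ hV, piL_deg _ _ _ (hd ▸ hV)]
  have h' := hp.length_eq ▸ h
  have e1 := ip_piL L L h V hV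
  have e2 := ip_piL L L' h' V hV
  have e3 := ip_piL L' L h V (hd ▸ hV)
  have e4 := ip_piL L' L' h' V (hd ▸ hV)
  have e5 : (nn L' L : ℂ) = nn L L' := by rw [← e3, ← ip_conj, e2, map_natCast]
  rw [← nn_perm L hp] at e2 e5
  rw [← nn_perm L' hp, e5] at e4
  rw [e5] at e3
  by_cases hg : IsUnit g
  swap
  · rw [(piL_chr _).onU _ _ hg, (piL_chr _).onU _ _ hg]
  obtain ⟨g, rfl⟩ := hg
  rw [ip_eq (piL_chr _).onU] at e1 e2 e3 e4
  have := Char.inner_self_eq_zero.1 (show classInner ((fun g : (End F V)ˣ => piL L V g) -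
    fun g : (End F V)ˣ => piL L' V g) ((fun g : (End F V)ˣ => piL L V g) -
    fun g : (End F V)ˣ => piL L' V g) = 0 by
      rw [Char.inner_sub_left, Char.inner_sub_right, Char.inner_sub_right, e1, e2, e3, e4]; ring)
  exact sub_eq_zero.1 (congrFun this g)

theorem adjL_all (m : ℕ) : ∀ M : List (CC F), M.length ≤ m → AdjL M := by
  have h0 : AdjL ([] : List (CC F)) := fun c => by
    funext V _ _ _ g
    have := c.pos
    have : ∀ h : End F ((Fin c.deg → F) × V), piL [] _ h = 0 := fun h =>
      piL_deg [] _ _ (by simp; omega)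
    simp [adj, this]
  induction m with
  | zero => exact fun M hM => List.length_eq_zero_iff.1 (Nat.le_zero.1 hM) ▸ h0
  | succ m ih =>
    rintro (_ | ⟨c', L⟩) hM
    · exact h0
    intro c
    funext V _ _ _ g
    have hL : L.length ≤ m := by simpa using hM
    rw [piL, adj_hall c.chr.cl c'.chr.cl (piL_chr _).cl c.cusp c'.cusp, ip_CC, ih L hL c]
    have e : hall c'.fm (fun V _ _ _ g => L.count c * piL (L.erase c) V g) V g =
        L.count c * piL (c' :: L.erase c) V g := by
      simp only [piL, hall, mul_sum, QQ]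
      exact sum_congr rfl fun W _ => by split_ifs <;> ring
    rw [e]
    split_ifs with h
    · subst h
      rw [List.count_cons_self, List.erase_cons_head]
      by_cases h1 : c' ∈ L
      · rw [← piL_perm' (List.perm_cons_erase h1) fun M hM => ih M (hM.trans hL)]
        push_cast
        ring
      · simp [List.count_eq_zero_of_not_mem h1]
    · rw [List.count_cons_of_ne h, List.erase_cons_tail (by simpa using h), zero_mul, zero_add]

theorem piL_perm {L L' : List (CC F)} (hp : L.Perm L') : piL L = piL L' :=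
  piL_perm' hp (adjL_all _)

theorem ip_pos {V : Type u} [AddCommGroup V] [Module F V] [FiniteDimensional F V] {n : ℕ}
    (hV : finrank F V = n) {φ φ' : Fam F} (h : IsChr φ) (h' : IsChr φ')
    (χ : IrrCharacter (GL (Fin n) F)) (h1 : ip V φ (fam n χ.1) ≠ 0) (h2 : ip V φ' (fam n χ.1) ≠ 0) :
    ip V φ φ' ≠ 0 := by
  choose a ha using fun χ : IrrCharacter (GL (Fin n) F) =>
    h.ip_nat (V := V) (fam_chr (irr_isCharacter χ.2))
  choose b hb using fun χ : IrrCharacter (GL (Fin n) F) =>
    (fam_chr (irr_isCharacter χ.2)).ip_nat (V := V) h'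
  have : ip V φ φ' = (∑ χ, a χ * b χ : ℕ) := by
    simp only [Nat.cast_sum, Nat.cast_mul, ← ha, ← hb]
    have e := expand h.cl h.onU hV
    conv_lhs => rw [ip]; enter [2, 2, g]; rw [e, sum_mul]
    rw [sum_comm, mul_sum]
    refine sum_congr rfl fun χ _ => ?_
    conv_rhs => enter [2]; rw [ip]
    simp only [mul_sum]
    exact sum_congr rfl fun g _ => by ring
  rw [this, Ne, Nat.cast_eq_zero, sum_eq_zero_iff]
  intro e
  rcases mul_eq_zero.1 (e χ (mem_univ _)) with e | e
  · exact h1 (by rw [ha, e, Nat.cast_zero])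
  · exact h2 (by rw [← ip_conj, hb, e, Nat.cast_zero, map_zero])

theorem exists_list (n : ℕ) : ∀ χ : IrrCharacter (GL (Fin n) F), ∃ L : List (CC F),
    (L.map CC.deg).sum = n ∧ ip (Fin n → F) (piL L) (fam n χ.1) ≠ 0 := by
  induction n using Nat.strong_induction_on with
  | _ n ih =>
  intro χ
  have hχ := fam_chr (irr_isCharacter χ.2)
  have h1 : fam n χ.1 (Fin n → F) 1 ≠ 0 := by
    have := fam_eq (irr_isClassFunction χ.2) (Pi.basisFun F (Fin n)) 1
    rw [Units.val_one, map_one] at this
    rw [this]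
    exact irr_one_ne_zero χ.2
  rcases n.eq_zero_or_pos with rfl | hn
  · refine ⟨[], rfl, ?_⟩
    have := ip_fam_fam (F := F) (V := Fin 0 → F) (by simp) (oneIrr _) χ
    rw [if_pos (Subtype.ext (funext fun g => by
      rw [Subsingleton.elim g 1, irr_one_eq_one_of_comm (fun _ _ => Subsingleton.elim _ _) χ.2]
      rfl))] at this
    exact this.trans_ne one_ne_zero
  obtain ⟨d, h0, hd, σ, h2, h3⟩ := exists_cusp hχ hn h1
  let c : CC F := ⟨d, σ, h0, h2⟩
  have h4 : IsChr (adj (Fin d → F) (fam d σ.1) (fam n χ.1)) := adj_chr c.chr hχ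
  rw [expand h4.cl h4.onU (d := n - d) (by simp)] at h3
  obtain ⟨a, -, ha⟩ := exists_ne_zero_of_sum_ne_zero h3
  obtain ⟨L, h5, h6⟩ := ih (n - d) (by omega) a
  refine ⟨c :: L, by simp [h5, c, hd], ?_⟩
  rw [ip_congr (V' := (Fin d → F) × (Fin (n - d) → F)) (LinearEquiv.ofFinrankEq _ _ (by simp [hd]))
    (piL_chr _).cl hχ.cl, piL, ip_hall c.chr.cl (piL_chr _).cl hχ.cl (by simpa [c] using c.dg)]
  exact ip_pos (by simp) (piL_chr _) h4 a h6 (left_ne_zero_of_mul ha)

variable {θ : AddChar F ℂ}

theorem gm_piL (hθ : θ ≠ 1) : ∀ L : List (CC F), gm (L.map CC.deg).sum θ⁻¹ (piL L) = 1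
  | [] => by
    classical
    have : ∀ g : Uni 0 F, psi 0 θ g = 1 := fun g => by
      rw [Subsingleton.elim g 1, map_one]
    refine (gm_fam (n := 0) (classFun_const 1)).trans ?_
    simp only [gam, this, Units.val_one, inner_one_one]
  | c :: L => by
    classical
    rw [List.map_cons, List.sum_cons, add_comm, piL, gm_hall (inv_ne_one.2 hθ) c.chr.cl
      (piL_chr _).cl c.dg, gm_piL hθ L, mul_one]
    exact (gm_fam (irr_isClassFunction c.chi.2)).trans (deg_cusp hθ c.pos c.isC c.chi.2).1

theorem card_multiset (hθ : θ ≠ 1) (n : ℕ) :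
    Nat.card {S : Multiset (CC F) // (S.map CC.deg).sum = n} = aN (Fintype.card F) n := by
  classical
  rw [← card_generic hθ]
  have h1 : ∀ S : {S : Multiset (CC F) // (S.map CC.deg).sum = n},
      ∃! χ : {χ : IrrCharacter (GL (Fin n) F) // gam (Uni n F) (psi n θ) χ = 1},
        ip (Fin n → F) (piL S.1.toList) (fam n χ.1.1) ≠ 0 := fun S => by
    have h := piL_chr S.1.toList
    choose a ha using fun χ : IrrCharacter (GL (Fin n) F) =>
      h.ip_nat (V := Fin n → F) (fam_chr (irr_isCharacter χ.2))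
    have h2 := gm_piL hθ S.1.toList
    rw [Multiset.sum_map_toList, S.2] at h2
    have h3 : ∑ χ : IrrCharacter (GL (Fin n) F) with gam (Uni n F) (psi n θ) χ.1 = 1, a χ = 1 := by
      rw [← Nat.cast_inj (R := ℂ), Nat.cast_one, Nat.cast_sum, sum_filter]
      refine Eq.trans ?_ h2
      simp only [gm, gs, expand h.cl h.onU (finrank_fin_fun F), sum_mul, ha]
      rw [sum_comm, mul_sum]
      refine sum_congr rfl fun χ _ => ?_
      have : _ = a χ * gam (Uni n F) (psi n θ) χ := congrArg _ (gm_fam (irr_isClassFunction χ.2))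
      simp only [gm, gs, mul_sum] at this ⊢
      rw [show (if gam (Uni n F) (psi n θ) χ = 1 then (a χ : ℂ) else 0) =
        a χ * gam (Uni n F) (psi n θ) χ by rcases gam_le_one hθ χ.2 with e | e <;> simp [e], ← this]
      exact sum_congr rfl fun g _ => by ring
    obtain ⟨χ, b1, b2⟩ := exists_ne_zero_of_sum_ne_zero (h3.trans_ne one_ne_zero)
    refine ⟨⟨χ, (mem_filter.1 b1).2⟩, by simp [ha, b2], fun χ' b4 => Subtype.ext ?_⟩
    by_contra e
    have := add_le_sum (f := a) (fun _ _ => Nat.zero_le _) (mem_filter.2 ⟨mem_univ _, χ'.2⟩) b1 e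
    simp only [ha, ne_eq, Nat.cast_eq_zero] at b4
    omega
  choose f hf hu using h1
  refine Nat.card_eq_of_bijective f ⟨fun S S' e => ?_, fun χ => ?_⟩
  · have := ip_pos (finrank_fin_fun F) (piL_chr _) (piL_chr _) _ (hf S) (e ▸ hf S')
    rw [ip_piL _ _ (adjL_all _) _ (by simp [S.2]), Nat.cast_ne_zero] at this
    exact Subtype.ext (by simpa using Multiset.coe_eq_coe.2 (perm_of_nn _ _ this))
  · obtain ⟨L, h2, h3⟩ := exists_list n χ.1
    refine ⟨⟨L, by simpa using h2⟩, (hu _ _ ?_).symm⟩
    rwa [piL_perm (Multiset.coe_eq_coe.1 (Multiset.coe_toList _))]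

end CF.Cusp
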