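import Cfsg.Agent.Cusp.J

/-!
# The number of cuspidal characters of `GL_n(q)`
-/

set_option autoImplicit false

open scoped MatrixGroups
open Cfsg Finset

namespace CF.Cusp

section Comb

variable {α : Type*} (dg : α → ℕ) (hpos : ∀ a, 0 < dg a) (M : ℕ → ℕ) (hM0 : ∀ n, M n ≠ 0)
  (hM : ∀ n, Nat.card {S : Multiset α // (S.map dg).sum = n} = M n)
include hpos hM0 hM

theorem comb_rec (n : ℕ) : n * M n = ∑ k ∈ range n,
    (∑ d ∈ (k + 1).divisors, d * Nat.card {a // dg a = d}) * M (n - (k + 1)) := by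
  classical
  have hf : ∀ n, Finite {S : Multiset α // (S.map dg).sum = n} := fun n =>
    Nat.finite_of_card_ne_zero (hM n ▸ hM0 n)
  have hf' : ∀ d, Finite {a // dg a = d} := fun d =>
    Finite.of_injective (β := {S : Multiset α // (S.map dg).sum = d})
      (fun a => ⟨{a.1}, by simp [a.2]⟩) fun a b e => Subtype.ext (by simpa using e)
  let X : ℕ → Finset (Multiset α) := fun n => Set.Finite.toFinset
    (s := setOf fun S : Multiset α => (S.map dg).sum = n) (hf n)
  have hX : ∀ n S, S ∈ X n ↔ (S.map dg).sum = n := fun n S => Set.Finite.mem_toFinset _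
  have cX : ∀ n, #(X n) = M n := fun n => by
    rw [← hM, Nat.subtype_card (X n) (hX n)]
  let Y : ℕ → Finset α := fun d => Set.Finite.toFinset (s := setOf fun a => dg a = d) (hf' d)
  have hY : ∀ d a, a ∈ Y d ↔ dg a = d := fun n S => Set.Finite.mem_toFinset _
  have cY : ∀ d, Nat.card {a // dg a = d} = #(Y d) := fun d => Nat.subtype_card _ (hY d)
  let Z := (range (n + 1)).biUnion Y
  have hZ : ∀ a, a ∈ Z ↔ dg a ≤ n := by simp [Z, hY, Nat.lt_succ_iff]
  have h1 : ∀ S ∈ X n, n = ∑ a ∈ Z, ∑ k ∈ range n,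
      if dg a ∣ k + 1 ∧ (k + 1) / dg a ≤ S.count a then dg a else 0 := fun S hS => by
    have h2 : ∀ a, S.count a * dg a ≤ n := fun a => by
      rw [← (hX n S).1 hS]
      obtain ⟨T, e⟩ := Multiset.le_iff_exists_add.1
        (Multiset.le_count_iff_replicate_le.1 (le_refl (S.count a)))
      conv_rhs => rw [e]
      simp
    conv_lhs => rw [← (hX n S).1 hS, Finset.sum_multiset_map_count]
    refine sum_subset_zero_on_sdiff (fun a ha => (hZ a).2 ?_) (fun a ha => ?_) fun a _ => ?_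
    · exact (Nat.le_mul_of_pos_left _ (Multiset.count_pos.2 (Multiset.mem_toFinset.1 ha))).trans (h2 a)
    · refine sum_eq_zero fun k _ => if_neg fun e => ?_
      have := Nat.div_pos (Nat.le_of_dvd k.succ_pos e.1) (hpos a)
      exact (mem_sdiff.1 ha).2 (Multiset.mem_toFinset.2 (Multiset.count_pos.1 (this.trans_le e.2)))
    · rw [← sum_filter, sum_const, ← card_range (S.count a)]
      congr 1
      refine card_bij (fun j _ => (j + 1) * dg a - 1) (fun j hj => ?_) (fun j _ j' _ e => ?_)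
        fun k hk => ?_
      · have a1 := Nat.mul_pos (Nat.add_one_pos j) (hpos a)
        have a2 : (j + 1) * dg a ≤ n := (Nat.mul_le_mul_right (dg a) (mem_range.1 hj)).trans (h2 a)
        rw [mem_filter, mem_range, Nat.sub_add_cancel a1, Nat.mul_div_cancel _ (hpos a)]
        exact ⟨by omega, dvd_mul_left _ _, by simpa using hj⟩
      · have a1 := Nat.mul_pos (Nat.add_one_pos j) (hpos a)
        have a2 := Nat.mul_pos (Nat.add_one_pos j') (hpos a)
        have := Nat.eq_of_mul_eq_mul_right (hpos a) (show (j + 1) * dg a = (j' + 1) * dg a by omega)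
        omega
      · obtain ⟨-, ⟨j, e⟩, a2⟩ := mem_filter.1 hk
        rw [e, Nat.mul_div_cancel_left _ (hpos a)] at a2
        rcases j with _ | j
        · omega
        · exact ⟨j, by simpa using a2, by rw [mul_comm, ← e]; rfl⟩
  rw [← cX, mul_comm, ← smul_eq_mul, ← sum_const, sum_congr rfl h1, sum_comm]
  simp only [sum_comm (s := X n)]
  rw [sum_comm]
  refine sum_congr rfl fun k hk => ?_
  have hk := mem_range.1 hk
  have h2 : ∀ a, (∑ S ∈ X n, if dg a ∣ k + 1 ∧ (k + 1) / dg a ≤ S.count a then dg a else 0) =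
      if dg a ∣ k + 1 then dg a * M (n - (k + 1)) else 0 := fun a => by
    split_ifs with h
    · simp only [h, true_and]
      rw [← sum_filter, sum_const, smul_eq_mul, mul_comm, ← cX]
      congr 1
      have e : (k + 1) / dg a * dg a = k + 1 := Nat.div_mul_cancel h
      refine (card_bij (fun T _ => T + Multiset.replicate ((k + 1) / dg a) a) (fun T hT => ?_)
        (fun T _ T' _ e => add_right_cancel e) fun S hS => ?_).symm
      · have := (hX _ _).1 hT
        simp [hX, e]
        omega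
      · obtain ⟨a1, a2⟩ := mem_filter.1 hS
        obtain ⟨T, rfl⟩ := Multiset.le_iff_exists_add.1 (Multiset.le_count_iff_replicate_le.1 a2)
        refine ⟨T, (hX _ _).2 ?_, add_comm _ _⟩
        have := (hX _ _).1 a1
        simp [e] at this
        omega
    · simp [h]
  simp only [h2, cY]
  rw [← sum_filter, ← sum_mul]
  congr 1
  rw [← sum_fiberwise_of_maps_to (g := dg) (t := (k + 1).divisors) fun a ha => by
    simpa using (mem_filter.1 ha).2]
  refine sum_congr rfl fun d hd => ?_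
  have hd := Nat.dvd_of_mem_divisors hd
  rw [sum_congr (s₂ := Y d) (g := fun _ => d) ?_ fun a ha => (hY _ _).1 ha, sum_const, smul_eq_mul,
    mul_comm]
  ext a
  simp only [mem_filter, hZ, hY]
  exact ⟨fun h => h.2, fun h => ⟨⟨h ▸ (Nat.le_of_dvd k.succ_pos hd).trans hk, h ▸ hd⟩, h⟩⟩

end Comb

theorem aN_rec {q : ℕ} (hq : 1 ≤ q) (n : ℕ) :
    n * aN q n = ∑ k ∈ range n, (q ^ (k + 1) - 1) * aN q (n - (k + 1)) := by
  obtain ⟨r, rfl⟩ := Nat.exists_eq_add_of_le' hq
  rcases n with _ | n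
  · simp
  have h1 : ∀ k ∈ range n, ((r + 1) ^ (k + 1) - 1) * aN (r + 1) (n + 1 - (k + 1)) +
      r * (r + 1) ^ (n - 1 - k) = r * (r + 1) ^ n := fun k hk => by
    obtain ⟨m, rfl⟩ := Nat.exists_eq_add_of_lt (mem_range.1 hk)
    have := Nat.one_le_pow (k + 1) (r + 1) r.succ_pos
    rw [show k + m + 1 + 1 - (k + 1) = m + 1 by omega, show k + m + 1 - 1 - k = m by omega, aN,
      Nat.add_sub_cancel]
    zify [this]
    ring
  have h2 := sum_congr rfl h1
  rw [sum_add_distrib, sum_range_reflect (fun j => r * (r + 1) ^ j), ← mul_sum, sum_const,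
    card_range, smul_eq_mul] at h2
  have h3 := geom_sum_mul_add r n
  have h4 := Nat.one_le_pow (n + 1) (r + 1) r.succ_pos
  rw [sum_range_succ, Nat.sub_self, aN, aN, Nat.add_sub_cancel]
  zify [h4] at h2 h3 ⊢
  linear_combination h3 - h2

theorem aN_ne {q : ℕ} (hq : 1 < q) : ∀ n, aN q n ≠ 0
  | 0 => one_ne_zero
  | n + 1 => mul_ne_zero (by omega) (pow_ne_zero _ (by omega))

theorem rec_unique {a p p' : ℕ → ℕ} (h0 : a 0 = 1) (h : ∀ n, ∑ k ∈ range n, p k * a (n - (k + 1)) =
    ∑ k ∈ range n, p' k * a (n - (k + 1))) (n : ℕ) : p n = p' n := by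
  induction n using Nat.strong_induction_on with
  | _ n ih =>
  have := h (n + 1)
  rwa [sum_range_succ, sum_range_succ, Nat.sub_self, h0, mul_one, mul_one,
    sum_congr rfl fun k hk => by rw [ih k (mem_range.1 hk)], add_right_inj] at this

theorem totient_le {q : ℕ} (hq : 1 < q) (c : ℕ → ℕ)
    (h : ∀ k, ∑ d ∈ (k + 1).divisors, c d = q ^ (k + 1) - 1) {n : ℕ} (hn : 0 < n) :
    (q ^ n - 1).totient ≤ c n := by
  have h0 : ∀ m, 0 < m → q ^ m - 1 ≠ 0 := fun m hm => by
    have := Nat.one_lt_pow hm.ne' hq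
    omega
  have h1 : ∀ r m, r ∣ q ^ m - 1 ↔ orderOf (q : ZMod r) ∣ m := fun r m => by
    rw [orderOf_dvd_iff_pow_eq_one, ← ZMod.natCast_eq_zero_iff,
      Nat.cast_pred (pow_pos (by omega) _), sub_eq_zero, Nat.cast_pow]
  let e : ℕ → ℕ := fun d => ∑ r ∈ (q ^ d - 1).divisors with orderOf (q : ZMod r) = d, r.totient
  have h2 : ∀ m, 0 < m → ∑ d ∈ m.divisors, e d = q ^ m - 1 := fun m hm => by
    rw [← Nat.sum_totient (q ^ m - 1), ← sum_fiberwise_of_maps_to (t := m.divisors)
      (g := fun r => orderOf (q : ZMod r)) fun r hr =>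
        Nat.mem_divisors.2 ⟨(h1 _ _).1 (Nat.dvd_of_mem_divisors hr), hm.ne'⟩]
    refine sum_congr rfl fun d hd => sum_congr ?_ fun _ _ => rfl
    ext r
    simp only [mem_filter, Nat.mem_divisors, h1, ne_eq, h0 m hm, h0 d (Nat.pos_of_mem_divisors hd),
      not_false_eq_true, and_true]
    exact and_congr_left fun a => by simp [a, Nat.dvd_of_mem_divisors hd]
  have h3 : ∀ m, 0 < m → c m = e m := fun m => by
    induction m using Nat.strong_induction_on with
    | _ m ih =>
    intro hm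
    have := (h (m - 1)).trans (by rw [Nat.sub_add_cancel hm, ← h2 m hm])
    rwa [Nat.sub_add_cancel hm, ← Nat.insert_self_properDivisors hm.ne', sum_insert (by simp),
      sum_insert (by simp), sum_congr rfl fun k hk => ih k (Nat.mem_properDivisors.1 hk).2
        (Nat.pos_of_mem_properDivisors hk), add_left_inj] at this
  rw [h3 n hn]
  refine single_le_sum (f := Nat.totient) (fun _ _ => Nat.zero_le _) (mem_filter.2
    ⟨Nat.mem_divisors_self _ (h0 n hn), ?_⟩)
  have a1 := (h1 _ n).1 dvd_rfl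
  have a2 := Nat.pos_of_dvd_of_pos a1 hn
  have a3 := Nat.le_of_dvd (Nat.pos_of_ne_zero (h0 _ a2)) ((h1 _ _).2 dvd_rfl)
  refine le_antisymm (Nat.le_of_dvd hn a1) ((Nat.pow_le_pow_iff_right hq).1 ?_)
  have := h0 _ a2
  omega

theorem main {F : Type*} [Field F] [Fintype F] [DecidableEq F] {n : ℕ} (hn : 0 < n) :
    (Fintype.card F ^ n - 1).totient ≤ n * Nat.card {χ : IrrCharacter (GL (Fin n) F) //
      χ.1 1 = ∏ i ∈ Ico 1 n, ((Fintype.card F : ℂ) ^ i - 1) ∧ IsCusp χ.1} := by
  classical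
  have hq : 1 < Fintype.card F := Fintype.one_lt_card
  obtain ⟨θ, hθ⟩ : ∃ θ : AddChar F ℂ, θ ≠ 1 := by
    obtain ⟨θ, h⟩ := (AddChar.exists_apply_ne_zero (α := F) (a := 1)).2 one_ne_zero
    exact ⟨θ, fun e => h (by simp [e])⟩
  refine (totient_le hq (fun d => d * Nat.card {c : CC F // c.deg = d}) (rec_unique (a := aN _)
    (p' := fun k => Fintype.card F ^ (k + 1) - 1) rfl fun m =>
      (comb_rec CC.deg CC.pos _ (aN_ne hq) (card_multiset hθ) m).symm.trans (aN_rec hq.le m))
        hn).trans_eq (congrArg _ (Nat.card_eq_of_bijective (fun χ => ⟨⟨n, χ.1, hn, χ.2.2⟩, rfl⟩)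
          ⟨fun a b e => Subtype.ext (by simpa using e), ?_⟩).symm)
  rintro ⟨⟨d, χ, h1, h2⟩, rfl⟩
  exact ⟨⟨χ, (deg_cusp hθ h1 h2 χ.2).2, h2⟩, rfl⟩

end CF.Cusp
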